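/-
A count of the `p`-blocks of a group with a unique character of `p`-defect zero, in which the centralizers of the
`p`-radical subgroups contain only central regular elements.
-/
import Cfsg.Agent.Lib.Block.FirstCount
import Cfsg.Agent.Lib.Block.NormalSylowCount
import Cfsg.Agent.Lib.Block.DefectZero
import Cfsg.Agent.Lib.Block.Defect
import Cfsg.Agent.Lib.CharExtra.DefectClass

set_option autoImplicit false

namespace Cfsg.Agent.Lib.BNSt

open Cfsg Cfsg.Agent.Lib.Block

section

variable {G : Type*} [Group G] [Fintype G] {p : ℕ} [hp : Fact p.Prime] {M : Ideal AlgInt}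

/-- The defect groups of the blocks other than that of the character of defect zero are Sylow subgroups. -/
theorem exists_sylow_defect (hM : IsPModular p M)
    {St : IrrCharacter G} (hSt : ∀ χ : IrrCharacter G, p ^ (Nat.card G).factorization p ∣ charDegree (χ : G → ℂ) → χ = St)
    (hR : ∀ D₀ : Subgroup G, IsPGroup p D₀ → D₀ ≠ ⊥ →
      (∀ Q : Subgroup (Subgroup.normalizer (D₀ : Set G)), Q.Normal → IsPGroup p Q → Q ≤ D₀.subgroupOf (Subgroup.normalizer (D₀ : Set G))) →
      ∀ x ∈ Subgroup.centralizer (D₀ : Set G), ¬ p ∣ orderOf x → x ∈ Subgroup.center G)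
    {B : Set (IrrCharacter G)} (hB : IsPBlock M B) (hStB : St ∉ B) :
    ∃ S : Sylow p G, IsDefectGroup p M B (S : Subgroup G) := by
  classical
  have := isPModular_isPrime hM
  have hpp : p.Prime := hp.out
  obtain ⟨D₀, hD₀⟩ := exists_isDefectGroup hM hB
  have hcard := card_defect_group hM hB hD₀
  have hne : D₀ ≠ ⊥ := by
    rintro rfl
    obtain ⟨χ, hχ⟩ := IsPBlock_nonempty hB
    apply hStB
    have h1 : χ = St := by
      apply hSt
      have h2 : blockDefect p B = 0 := by
        have h3 : Nat.card (⊥ : Subgroup G) = 1 := Subgroup.card_bot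
        rw [h3] at hcard
        by_contra h4
        have h5 : p ^ blockDefect p B ≠ 1 := by
          intro h6
          have := (Nat.pow_eq_one.1 h6)
          rcases this with h7 | h7
          · exact hpp.one_lt.ne' h7
          · exact h4 h7
        exact h5 hcard.symm
      unfold blockDefect at h2
      have h3 : (Nat.card G).factorization p ≤ sInf ((fun χ : IrrCharacter G => (charDegree (χ : G → ℂ)).factorization p) '' B) := by
        omega
      have h4 : sInf ((fun χ : IrrCharacter G => (charDegree (χ : G → ℂ)).factorization p) '' B) ≤ (charDegree (χ : G → ℂ)).factorization p :=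
        Nat.sInf_le ⟨χ, hχ, rfl⟩
      have hdeg : charDegree (χ : G → ℂ) ≠ 0 := by
        have := Cfsg.Agent.Lib.Char.charDegree_dvd_card χ.2
        intro h0
        rw [h0, zero_dvd_iff] at this
        exact Nat.card_pos.ne' this
      exact (hpp.pow_dvd_iff_le_factorization hdeg).2 (h3.trans h4)
    rw [← h1]
    exact hχ
  have hDp : IsPGroup p D₀ := by
    obtain ⟨y, _, Q, rfl⟩ := hD₀
    exact (Q.isPGroup').map _
  have hRad : ∀ Q : Subgroup (Subgroup.normalizer (D₀ : Set G)), Q.Normal → IsPGroup p Q →
      Q ≤ D₀.subgroupOf (Subgroup.normalizer (D₀ : Set G)) := by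
    intro Q hQn hQp
    haveI : Fintype (Subgroup.normalizer (D₀ : Set G)) := Fintype.ofFinite _
    obtain ⟨b, hb, hbD⟩ := exists_block_normalizer hM hB hD₀
    exact normal_le_defect hM hQp hb.1 hbD
  obtain ⟨x, hx, P, hP⟩ := id hD₀
  have hxreg : ¬ p ∣ orderOf x := by
    refine regular_of_blockCoeff_ne_zero hM (isBlockUnion_of_isPBlock hB) (fun h0 => hx.2.1 ?_)
    rw [h0]
    exact memLocalIdeal_zero
  have hxc : x ∈ Subgroup.centralizer (D₀ : Set G) := by
    rw [Subgroup.mem_centralizer_iff]
    intro d hd
    rw [hP] at hd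
    obtain ⟨z, _, rfl⟩ := hd
    have := Subgroup.mem_centralizer_singleton_iff.1 z.2
    exact this
  have hxZ := hR D₀ hDp hne hRad x hxc hxreg
  have hcen : Subgroup.centralizer ({x} : Set G) = ⊤ := by
    rw [eq_top_iff]
    intro g _
    rw [Subgroup.mem_centralizer_singleton_iff]
    exact Subgroup.mem_center_iff.1 hxZ g
  have hcard2 : Nat.card D₀ = p ^ (Nat.card G).factorization p := by
    have h1 : Nat.card D₀ = Nat.card P := by
      rw [hP]
      exact Nat.card_congr (Subgroup.equivMapOfInjective _ _ (Subgroup.subtype_injective _)).symm.toEquiv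
    have h2 := P.card_eq_multiplicity
    have h3 : Nat.card (Subgroup.centralizer ({x} : Set G)) = Nat.card G := by
      rw [hcen]
      exact Nat.card_congr Subgroup.topEquiv.toEquiv
    rw [h3] at h2
    rw [h1]
    exact h2
  refine ⟨Sylow.ofCard D₀ hcard2, ?_⟩
  rw [Sylow.coe_ofCard]
  exact hD₀

/-- Any Sylow subgroup is a defect group, as soon as one is. -/
theorem defect_of_sylow {B : Set (IrrCharacter G)} {S : Sylow p G} (h : IsDefectGroup p M B (S : Subgroup G)) (U : Sylow p G) :
    IsDefectGroup p M B (U : Subgroup G) := by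
  obtain ⟨a, ha⟩ := MulAction.exists_smul_eq G S U
  have h1 := Cfsg.Agent.Lib.CharExtra.isDefectGroup_conj h a
  have h2 : (S : Subgroup G).map (MulAut.conj a).toMonoidHom = (U : Subgroup G) := by
    rw [← ha, Sylow.coe_subgroup_smul]
    rfl
  rwa [h2] at h1

/-- The blocks with a Sylow subgroup as defect group correspond to the central regular elements. -/
theorem card_blocks_sylow (hM : IsPModular p M) (U : Sylow p G) (hU : (U : Subgroup G) ≠ ⊥)
    (hR : ∀ D₀ : Subgroup G, IsPGroup p D₀ → D₀ ≠ ⊥ →
      (∀ Q : Subgroup (Subgroup.normalizer (D₀ : Set G)), Q.Normal → IsPGroup p Q → Q ≤ D₀.subgroupOf (Subgroup.normalizer (D₀ : Set G))) →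
      ∀ x ∈ Subgroup.centralizer (D₀ : Set G), ¬ p ∣ orderOf x → x ∈ Subgroup.center G) :
    Nat.card {B : Set (IrrCharacter G) // IsPBlock M B ∧ IsDefectGroup p M B (U : Subgroup G)} =
      Nat.card {z : G // z ∈ Subgroup.center G ∧ ¬ p ∣ orderOf z} := by
  classical
  haveI : Fintype (Subgroup.normalizer ((U : Subgroup G) : Set G)) := Fintype.ofFinite _
  rw [card_blocks_defect_eq_normalizer hM U.isPGroup']
  set N := Subgroup.normalizer ((U : Subgroup G) : Set G) with hN
  have hUN : (U : Subgroup G) ≤ N := Subgroup.le_normalizer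
  let S : Sylow p N := U.subtype hUN
  have hS : (S : Subgroup N) = (U : Subgroup G).subgroupOf N := Sylow.coe_subtype U hUN
  haveI hn : ((U : Subgroup G).subgroupOf N).Normal := normal_subgroupOf_normalizer _
  rw [card_blocks_normal_sylow M hM ((U : Subgroup G).subgroupOf N) S hS]
  have hZN : Subgroup.center G ≤ N := by
    intro z hz
    rw [hN, Subgroup.mem_normalizer_iff]
    intro u
    have e : z * u * z⁻¹ = u := by
      rw [(Subgroup.mem_center_iff.1 hz u).symm]
      group
    rw [e]
  have hcentral : ∀ {z : N} {n : N}, (z : G) ∈ Subgroup.center G → ConjClasses.mk n = ConjClasses.mk z → n = z := by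
    intro z n hz h
    obtain ⟨c, hc⟩ := isConj_iff.1 (ConjClasses.mk_eq_mk_iff_isConj.1 h)
    apply Subtype.ext
    have h1 := congrArg (Subtype.val) hc
    simp only [Subgroup.coe_mul, InvMemClass.coe_inv] at h1
    have h3 : (n : G) = (c : G)⁻¹ * (z : G) * c := by
      rw [← h1]
      group
    rw [h3, Subgroup.mem_center_iff.1 hz ((c : G)⁻¹)]
    group
  let f : {z : G // z ∈ Subgroup.center G ∧ ¬ p ∣ orderOf z} →
      {C : ConjClasses N // ∀ n : N, ConjClasses.mk n = C → ¬ p ∣ orderOf n ∧ n ∈ Subgroup.centralizer (((U : Subgroup G).subgroupOf N : Subgroup N) : Set N)} :=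
    fun z => ⟨ConjClasses.mk ⟨z.1, hZN z.2.1⟩, by
      intro n hn
      have e := hcentral (z := ⟨z.1, hZN z.2.1⟩) z.2.1 hn
      subst e
      refine ⟨?_, ?_⟩
      · rw [Subgroup.orderOf_mk]
        exact z.2.2
      · rw [Subgroup.mem_centralizer_iff]
        intro u _
        apply Subtype.ext
        exact Subgroup.mem_center_iff.1 z.2.1 _⟩
  symm
  refine Nat.card_congr (Equiv.ofBijective f ⟨?_, ?_⟩)
  · intro a b hab
    have h1 : ConjClasses.mk (⟨a.1, hZN a.2.1⟩ : N) = ConjClasses.mk ⟨b.1, hZN b.2.1⟩ := congrArg Subtype.val hab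
    have h2 := hcentral (z := ⟨b.1, hZN b.2.1⟩) b.2.1 h1
    exact Subtype.ext (congrArg (fun w : N => (w : G)) h2)
  · rintro ⟨C, hC⟩
    obtain ⟨n, rfl⟩ := ConjClasses.mk_surjective C
    obtain ⟨h1, h2⟩ := hC n rfl
    have hnc : (n : G) ∈ Subgroup.centralizer (((U : Subgroup G)) : Set G) := by
      rw [Subgroup.mem_centralizer_iff]
      intro u hu
      have h3 := (Subgroup.mem_centralizer_iff.1 h2) ⟨u, hUN hu⟩ (Subgroup.mem_subgroupOf.2 hu)
      exact congrArg Subtype.val h3
    have hreg : ¬ p ∣ orderOf (n : G) := by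
      rwa [Subgroup.orderOf_coe]
    have hz := hR _ U.isPGroup' hU (fun Q hQn hQp => by
      rw [← hS]
      exact hQp.le_sylow_of_normal S) _ hnc hreg
    refine ⟨⟨(n : G), hz, hreg⟩, ?_⟩
    apply Subtype.ext
    rfl

/-- The number of blocks. -/
theorem card_blocks_eq (hM : IsPModular p M) (U : Sylow p G) (hU : (U : Subgroup G) ≠ ⊥)
    {St : IrrCharacter G} (hSt : ∀ χ : IrrCharacter G, p ^ (Nat.card G).factorization p ∣ charDegree (χ : G → ℂ) → χ = St)
    (hSt1 : p ^ (Nat.card G).factorization p ∣ charDegree (St : G → ℂ))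
    (hR : ∀ D₀ : Subgroup G, IsPGroup p D₀ → D₀ ≠ ⊥ →
      (∀ Q : Subgroup (Subgroup.normalizer (D₀ : Set G)), Q.Normal → IsPGroup p Q → Q ≤ D₀.subgroupOf (Subgroup.normalizer (D₀ : Set G))) →
      ∀ x ∈ Subgroup.centralizer (D₀ : Set G), ¬ p ∣ orderOf x → x ∈ Subgroup.center G) :
    Nat.card {B : Set (IrrCharacter G) // IsPBlock M B} =
      Nat.card {z : G // z ∈ Subgroup.center G ∧ ¬ p ∣ orderOf z} + 1 := by
  classical
  have := isPModular_isPrime hM
  have hpp : p.Prime := hp.out
  rw [← card_blocks_sylow hM U hU hR]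
  have hsing : blockOf M (St : G → ℂ) = {St} := by
    apply blockOf_eq_singleton_of_not_dvd hM
    rw [not_dvd_card_div_iff hpp (Cfsg.Agent.Lib.Char.charDegree_dvd_card St.2)]
    exact hSt1
  have hYne : Nonempty {z : G // z ∈ Subgroup.center G ∧ ¬ p ∣ orderOf z} :=
    ⟨⟨1, Subgroup.one_mem _, by simpa using hpp.one_lt.ne'⟩⟩
  have hYfin : Finite {B : Set (IrrCharacter G) // IsPBlock M B ∧ IsDefectGroup p M B (U : Subgroup G)} := by
    apply Nat.finite_of_card_ne_zero
    rw [card_blocks_sylow hM U hU hR]
    exact Nat.card_pos.ne'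
  let g : Option {B : Set (IrrCharacter G) // IsPBlock M B ∧ IsDefectGroup p M B (U : Subgroup G)} →
      {B : Set (IrrCharacter G) // IsPBlock M B} := fun o =>
    match o with
    | none => ⟨{St}, hsing ▸ isPBlock_blockOf St⟩
    | some y => ⟨y.1, y.2.1⟩
  have hg : Function.Bijective g := by
    constructor
    · intro a b hab
      have hne : ∀ y : {B : Set (IrrCharacter G) // IsPBlock M B ∧ IsDefectGroup p M B (U : Subgroup G)}, y.1 ≠ {St} := by
        rintro ⟨y, hy1, hy2⟩ (h : y = {St})
        subst h
        have h1 := card_defect_group hM hy1 hy2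
        have h2 : blockDefect p ({St} : Set (IrrCharacter G)) = 0 := by
          unfold blockDefect
          rw [Set.image_singleton, csInf_singleton]
          have hdeg : charDegree (St : G → ℂ) ≠ 0 := by
            have := Cfsg.Agent.Lib.Char.charDegree_dvd_card St.2
            intro h0
            rw [h0, zero_dvd_iff] at this
            exact Nat.card_pos.ne' this
          have := (hpp.pow_dvd_iff_le_factorization hdeg).1 hSt1
          omega
        rw [h2, pow_zero] at h1
        exact hU (Subgroup.card_eq_one.1 h1)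
      cases a with
      | none =>
        cases b with
        | none => rfl
        | some b =>
          exact absurd (congrArg Subtype.val hab).symm (hne b)
      | some a =>
        cases b with
        | none =>
          exact absurd (congrArg Subtype.val hab) (hne a)
        | some b =>
          have h : (g (some a)).1 = (g (some b)).1 := by rw [hab]
          have h' : a.1 = b.1 := h
          exact congrArg some (Subtype.ext h')
    · rintro ⟨B, hB⟩
      by_cases hStB : St ∈ B
      · refine ⟨none, Subtype.ext ?_⟩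
        show {St} = B
        rw [← hsing]
        exact (blockOf_eq_of_mem hB hStB).symm
      · obtain ⟨S, hS⟩ := exists_sylow_defect hM hSt hR hB hStB
        exact ⟨some ⟨B, hB, defect_of_sylow hS U⟩, rfl⟩
  rw [← Nat.card_congr (Equiv.ofBijective g hg), Finite.card_option]

end

end Cfsg.Agent.Lib.BNSt
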