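/-
The numerical certificate behind the general centraliser theorem.
-/
import Cfsg.Agent.Lib.BNSt.CentGen

set_option autoImplicit false

namespace Cfsg.Agent.Lib.BNSt

open Cfsg Cfsg.Lie Cfsg.Agent.Lib.Chev Cfsg.Agent.Lib.BN

/-- The weight vector of the certificate. -/
noncomputable def vCG (T : Tbl) (S₀ : List ℕ) (a : ℕ → ℕ) (j : ℕ) : ℤ :=
  (S₀.map fun s => (a s : ℤ) * T.pairT s (T.simple j)).sum

/-- The parts of the certificate. -/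
def ChkCG1 (T : Tbl) (S₀ Ty : List ℕ) : Prop :=
  (∀ r ∈ Ty, T.n / 2 ≤ r ∧ r < T.n) ∧ (∀ s ∈ S₀, s ∈ Ty) ∧ S₀.Nodup ∧
  (∀ s ∈ Ty, ∀ s' ∈ Ty, s ≠ s' → chkEven T s s' = true) ∧
  (∀ r ∈ List.range' (T.n / 2) (T.n / 2), ∀ s ∈ Ty, s ≠ r → ∀ c ∈ T.commT r s, c.2.1 % 2 ≠ 0 → c.1 ∈ Ty ∧ c.1 ∉ S₀)

/-- The parts of the certificate. -/
def ChkCG2 (T : Tbl) (S₀ Ty : List ℕ) (Yd : List (ℕ × ℕ × ℕ)) : Prop :=
  (∀ p ∈ Yd, T.n / 2 ≤ p.1 ∧ p.1 < T.n) ∧ (∀ p ∈ Yd, p.2.1 ∈ S₀) ∧ (∀ p ∈ Yd, p.2.2 ∈ Ty ∧ p.2.2 ∉ S₀) ∧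
  (∀ p ∈ Yd, p.1 ∉ Ty) ∧ (∀ p ∈ Yd, ∀ s ∈ S₀, s ≠ p.2.1 → chkEven T p.1 s = true) ∧
  (∀ p ∈ Yd, ((T.commT p.1 p.2.1).filter fun c => decide (c.2.1 % 2 ≠ 0)).map (fun c => (c.1, c.2.2)) = [(p.2.2, 1, 1)]) ∧
  (∀ p ∈ Yd, ∀ p' ∈ Yd, chkEven T p.1 p'.2.2 = true) ∧ (Yd.map fun p => p.2.2).Nodup

/-- The parts of the certificate. -/
def ChkCG3 (T : Tbl) (S₀ : List ℕ) (Yd : List (ℕ × ℕ × ℕ)) (J : List ℕ) : Prop :=
  (∀ r ∈ List.range' (T.n / 2) (T.n / 2), r ∉ Yd.map Prod.fst → ∀ s ∈ S₀, s ≠ r → chkEven T r s = true) ∧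
  (∀ j ∈ J, j < T.l ∧ T.simple j ∉ Yd.map Prod.fst ∧ ∀ s ∈ S₀, s ≠ T.simple j ∧ chkEven T (T.neg (T.simple j)) s = true) ∧
  (∀ y ∈ Yd.map Prod.fst, ∃ i ∈ List.range T.l, i ∉ J ∧ T.cor y i ≠ 0)

/-- The parts of the certificate. -/
def ChkCG4 (T : Tbl) (S₀ Ty : List ℕ) (O : List (List ℕ)) : Prop :=
  S₀ ∈ O ∧ (∀ τ ∈ O, ∀ i ∈ List.range T.l, τ.map (T.refl i) ∈ O) ∧ (∀ τ ∈ O, (∀ x ∈ τ, x ∈ Ty) → τ = S₀)

/-- The parts of the certificate. -/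
def ChkCG5 (T : Tbl) (S₀ : List ℕ) (J : List ℕ) (a : ℕ → ℕ) (mc : ℕ → ℕ → ℤ) : Prop :=
  (∀ j ∈ List.range T.l, 0 ≤ vCG T S₀ a j ∧ (vCG T S₀ a j = 0 ↔ j ∈ J)) ∧
  (∀ i ∈ List.range T.l, i ∉ J → ∀ j ∈ List.range T.l, (S₀.map fun s => mc i s * T.cart j s).sum = if i = j then 1 else 0)

noncomputable instance (T : Tbl) (S₀ Ty : List ℕ) : Decidable (ChkCG1 T S₀ Ty) := by
  unfold ChkCG1; infer_instance
noncomputable instance (T : Tbl) (S₀ Ty : List ℕ) (Yd : List (ℕ × ℕ × ℕ)) : Decidable (ChkCG2 T S₀ Ty Yd) := by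
  unfold ChkCG2; infer_instance
noncomputable instance (T : Tbl) (S₀ : List ℕ) (Yd : List (ℕ × ℕ × ℕ)) (J : List ℕ) : Decidable (ChkCG3 T S₀ Yd J) := by
  unfold ChkCG3; infer_instance
noncomputable instance (T : Tbl) (S₀ Ty : List ℕ) (O : List (List ℕ)) : Decidable (ChkCG4 T S₀ Ty O) := by
  unfold ChkCG4; infer_instance
noncomputable instance (T : Tbl) (S₀ : List ℕ) (J : List ℕ) (a : ℕ → ℕ) (mc : ℕ → ℕ → ℤ) : Decidable (ChkCG5 T S₀ J a mc) := by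
  unfold ChkCG5; infer_instance

variable {D : ChevalleyDatum} {T : Tbl}

lemma mem_range'_half {r : ℕ} (hT : T.n % 2 = 0) (h1 : T.n / 2 ≤ r) (h2 : r < T.n) : r ∈ List.range' (T.n / 2) (T.n / 2) := by
  rw [List.mem_range'_1]
  omega

/-- The certificate gives the hypotheses of the general centraliser theorem. -/
theorem centHyp_of_chk (hG : T.Good3 D) {S₀ Ty : List ℕ} {Yd : List (ℕ × ℕ × ℕ)} {J : List ℕ} {a : ℕ → ℕ}
    {mc : ℕ → ℕ → ℤ} {O : List (List ℕ)} (h1 : ChkCG1 T S₀ Ty) (h2 : ChkCG2 T S₀ Ty Yd) (h3 : ChkCG3 T S₀ Yd J)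
    (h4 : ChkCG4 T S₀ Ty O) (h5 : ChkCG5 T S₀ J a mc) : CentHyp T D S₀ Ty Yd J a mc O := by
  have hn := hG.correct.n_eq
  have hl := hG.correct.l_eq
  have hev : T.n % 2 = 0 := by
    rw [hn]
    exact hG.even_n
  obtain ⟨a1, a2, a3, a4, a5⟩ := h1
  obtain ⟨b1, b2, b3, b4, b5, b6, b7, b8⟩ := h2
  obtain ⟨c1, c2, c3⟩ := h3
  obtain ⟨d1, d2, d3⟩ := h4
  obtain ⟨e1, e2⟩ := h5
  have hsl : ∀ s ∈ S₀, s < D.nroots := fun s hs => by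
    have := (a1 s (a2 s hs)).2
    omega
  have hv : ∀ j, j < D.rank → (S₀.map fun s => (a s : ℤ) * D.pairing s (D.simple j)).sum = vCG T S₀ a j := by
    intro j hj
    unfold vCG
    congr 1
    refine List.map_congr_left fun s hs => ?_
    rw [hG.correct.simple_eq j hj, hG.pairT_eq (hsl s hs) (hG.simple_lt hj)]
  refine ⟨⟨?_, a2, a3, a4, ?_⟩, ⟨?_, b2, b3, b4, b5, b6, b7, b8⟩, ?_, ?_, ?_, d1, ?_, d3, ?_, ?_, ?_⟩
  · intro r hr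
    have := a1 r hr
    rwa [hn] at this
  · intro r hr1 hr2 s hs hne c hc h
    exact a5 r (mem_range'_half hev (by rwa [hn]) (by rwa [hn])) s hs hne c hc h
  · intro p hp
    have := b1 p hp
    rwa [hn] at this
  · intro r hr1 hr2 hrY s hs hne
    exact c1 r (mem_range'_half hev (by rwa [hn]) (by rwa [hn])) hrY s hs hne
  · intro j hj
    obtain ⟨f1, f2, f3⟩ := c2 j hj
    have hj' : j < D.rank := by rwa [← hl]
    rw [hG.correct.simple_eq j hj'] at f2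
    refine ⟨hj', f2, fun s hs => ?_⟩
    obtain ⟨g1, g2⟩ := f3 s hs
    rw [hG.correct.simple_eq j hj'] at g1
    exact ⟨g1, g2⟩
  · intro y hy hin
    obtain ⟨i, hi, hiJ, hne⟩ := c3 y hy
    have hi' : i < D.rank := by
      rw [← hl]
      exact List.mem_range.1 hi
    apply hne
    rw [hG.correct.cor_eq y i hin.1 hi']
    exact hin.2 i hi' hiJ
  · intro τ hτ i hi
    exact d2 τ hτ i (List.mem_range.2 (by rwa [hl]))
  · intro j hj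
    rw [hv j hj]
    exact (e1 j (List.mem_range.2 (by rwa [hl]))).1
  · intro j hj
    rw [hv j hj]
    exact (e1 j (List.mem_range.2 (by rwa [hl]))).2
  · intro i hi hiJ j hj
    have := e2 i (List.mem_range.2 (by rwa [hl])) hiJ j (List.mem_range.2 (by rwa [hl]))
    rw [← this]
    congr 1
    refine List.map_congr_left fun s hs => ?_
    rw [hG.correct.cart_eq j s hj (hsl s hs)]

end Cfsg.Agent.Lib.BNSt
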