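/-
Valuation rings in the complex numbers, integral forms of representations, and their reduction.
-/
import Cfsg.Agent.Lib.Char.Degrees
import Cfsg.Agent.Lib.Char.Complete
import Cfsg.Agent.Lib.Char.Iso
import Mathlib.RingTheory.Valuation.LocalSubring
import Mathlib.RingTheory.Valuation.ValuationSubring

set_option autoImplicit false

namespace Cfsg.Agent.Lib.BNSt

open Cfsg.Agent.Lib.Char Module Matrix

/-- A valuation ring of the complex numbers in which the prime is not invertible. -/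
lemma exists_valSub {p : ℕ} (hp : p.Prime) : ∃ O : ValuationSubring ℂ, (p : ℂ) ∈ O.nonunits := by
  let A : Subring ℂ := (Int.castRingHom ℂ).range
  let a : A := ⟨(p : ℂ), ⟨(p : ℤ), by simp⟩⟩
  have hI : Ideal.span {a} ≠ ⊤ := by
    intro h
    rw [Ideal.span_singleton_eq_top] at h
    obtain ⟨⟨b, ⟨m, hm⟩⟩, hb⟩ := h.exists_right_inv
    have h1 : (p : ℂ) * b = 1 := congrArg (fun z : A => (z : ℂ)) hb
    rw [← hm] at h1
    have h2 : ((p : ℤ) * m : ℤ) = 1 := by
      have : (((p : ℤ) * m : ℤ) : ℂ) = ((1 : ℤ) : ℂ) := by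
        push_cast
        simpa using h1
      exact_mod_cast this
    have h3 : (p : ℤ) ∣ 1 := ⟨m, h2.symm⟩
    have h4 : p ∣ 1 := by exact_mod_cast h3
    exact hp.one_lt.ne' (Nat.dvd_one.1 h4)
  obtain ⟨B, _, hB⟩ := Ideal.image_subset_nonunits_valuationSubring _ hI
  exact ⟨B, hB ⟨a, Ideal.subset_span rfl, rfl⟩⟩

/-- Integers prime to the characteristic are units. -/
lemma natCast_inv_mem (O : ValuationSubring ℂ) {p : ℕ} (hp : (p : ℂ) ∈ O.nonunits) {m : ℕ} (h : Nat.Coprime m p) :
    ((m : ℂ))⁻¹ ∈ O := by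
  have hint : ∀ z : ℤ, O.valuation (z : ℂ) ≤ 1 := fun z =>
    (O.valuation_le_one_iff _).2 (intCast_mem O z)
  have hlt : O.valuation (p : ℂ) < 1 := (ValuationSubring.mem_nonunits_iff O).1 hp
  have hm : (m : ℂ) ≠ 0 := by
    intro h0
    have h1 : m = 0 := by exact_mod_cast h0
    subst h1
    have h2 : p = 1 := by simpa using h
    subst h2
    simp at hlt
  have h1 : ¬ O.valuation (m : ℂ) < 1 := by
    intro h2
    have e : ((Nat.gcd m p : ℕ) : ℤ) = (m : ℤ) * Nat.gcdA m p + (p : ℤ) * Nat.gcdB m p := Nat.gcd_eq_gcd_ab m p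
    rw [h] at e
    have e2 : (1 : ℂ) = (m : ℂ) * (Nat.gcdA m p : ℂ) + (p : ℂ) * (Nat.gcdB m p : ℂ) := by
      have := congrArg (fun z : ℤ => (z : ℂ)) e
      simpa using this
    have h3 : O.valuation (1 : ℂ) < 1 := by
      rw [e2]
      refine O.valuation.map_add_lt ?_ ?_
      · rw [map_mul]
        calc _ ≤ O.valuation (m : ℂ) * 1 := by gcongr; exact hint _
          _ < 1 := by simpa using h2
      · rw [map_mul]
        calc _ ≤ O.valuation (p : ℂ) * 1 := by gcongr; exact hint _
          _ < 1 := by simpa using hlt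
    simp at h3
  have h2 : O.valuation (m : ℂ) ≤ 1 := by
    have := hint (m : ℤ)
    simpa using this
  have h3 : O.valuation (m : ℂ) = 1 := le_antisymm h2 (not_lt.1 h1)
  rw [← O.valuation_le_one_iff, map_inv₀, h3, inv_one]

variable {G : Type*} [Group G] [Finite G] {n : ℕ}

/-- A matrix representation is conjugate to one with entries in a valuation ring. -/
lemma exists_integral_conj (O : ValuationSubring ℂ) (M : G →* Matrix (Fin n) (Fin n) ℂ) :
    ∃ Q : Matrix (Fin n) (Fin n) ℂ, Q.det ≠ 0 ∧ ∀ g i j, (Q⁻¹ * M g * Q) i j ∈ O := by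
  classical
  let col : (Fin n → G × Fin n) → Matrix (Fin n) (Fin n) ℂ := fun t => Matrix.of fun a j => M (t j).1 a (t j).2
  haveI : Nonempty (Fin n → G × Fin n) := ⟨fun j => (1, j)⟩
  obtain ⟨t, ht⟩ := Finite.exists_max (fun t : Fin n → G × Fin n => O.valuation (col t).det)
  have h1 : col (fun j => (1, j)) = 1 := by
    ext a j
    simp [col]
  have hD : (col t).det ≠ 0 := by
    intro h0
    have h2 := ht (fun j => (1, j))
    rw [h1, h0, Matrix.det_one, map_one, map_zero] at h2
    exact one_ne_zero (le_antisymm h2 zero_le')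
  refine ⟨col t, hD, fun g i j => ?_⟩
  set Q := col t with hQ
  let s : Fin n → ℂ := fun a => M (g * (t j).1) a (t j).2
  have e1 : ∀ a, (M g * Q) a j = s a := by
    intro a
    simp only [s, map_mul, Matrix.mul_apply, hQ, col, Matrix.of_apply]
  have e2 : (Q⁻¹ * M g * Q) i j = (Q⁻¹ *ᵥ s) i := by
    rw [mul_assoc, Matrix.mul_apply, Matrix.mulVec, dotProduct]
    exact Finset.sum_congr rfl fun a _ => by rw [e1]
  rw [e2, Matrix.inv_def, Ring.inverse_eq_inv', Matrix.smul_mulVec, Pi.smul_apply, smul_eq_mul,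
    ← Matrix.cramer_eq_adjugate_mulVec, Matrix.cramer_apply]
  have e3 : Q.updateCol i s = col (Function.update t i (g * (t j).1, (t j).2)) := by
    ext a b
    by_cases hb : b = i
    · subst hb
      simp [Matrix.updateCol_apply, col, s]
    · simp [Matrix.updateCol_apply, col, hb, hQ]
  rw [e3, ← O.valuation_le_one_iff, map_mul, map_inv₀]
  have h3 := ht (Function.update t i (g * (t j).1, (t j).2))
  have hpos : O.valuation (col t).det ≠ 0 := (Valuation.ne_zero_iff _).2 hD
  calc _ ≤ (O.valuation (col t).det)⁻¹ * O.valuation (col t).det := by gcongr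
    _ = 1 := inv_mul_cancel₀ hpos

/-- An integral form of an irreducible representation. -/
theorem exists_integral_form (O : ValuationSubring ℂ) (σ : Representation ℂ G (Fin n → ℂ)) (hσ : σ.IsIrreducible) :
    ∃ (A : G →* Matrix (Fin n) (Fin n) O) (σ' : Representation ℂ G (Fin n → ℂ)), σ'.IsIrreducible ∧
      σ'.character = σ.character ∧ ∀ g, σ' g = Matrix.toLin' ((A g).map ((↑) : O → ℂ)) := by
  classical
  let M : G →* Matrix (Fin n) (Fin n) ℂ :=
    { toFun := fun g => LinearMap.toMatrix' (σ g)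
      map_one' := by simp
      map_mul' := fun a b => by rw [map_mul, Module.End.mul_eq_comp, LinearMap.toMatrix'_comp] }
  obtain ⟨Q, hQ, hint⟩ := exists_integral_conj O M
  have hQu : IsUnit Q.det := isUnit_iff_ne_zero.2 hQ
  have e1 : Q * Q⁻¹ = 1 := Matrix.mul_nonsing_inv Q hQu
  have e2 : Q⁻¹ * Q = 1 := Matrix.nonsing_inv_mul Q hQu
  let A : G →* Matrix (Fin n) (Fin n) O :=
    { toFun := fun g => Matrix.of fun i j => ⟨(Q⁻¹ * M g * Q) i j, hint g i j⟩
      map_one' := by
        ext i j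
        simp [e2, Matrix.one_apply]
        split_ifs <;> simp
      map_mul' := fun a b => by
        ext i j
        have e3 : Q⁻¹ * (M a * M b) * Q = (Q⁻¹ * M a * Q) * (Q⁻¹ * M b * Q) := by
          calc Q⁻¹ * (M a * M b) * Q = Q⁻¹ * M a * (Q * Q⁻¹) * M b * Q := by rw [e1]; simp [mul_assoc]
            _ = _ := by simp only [mul_assoc]
        simp only [Matrix.of_apply, map_mul M]
        rw [e3, Matrix.mul_apply, Matrix.mul_apply]
        simp only [Matrix.of_apply, AddSubmonoidClass.coe_finset_sum, MulMemClass.coe_mul] }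
  let e : (Fin n → ℂ) ≃ₗ[ℂ] (Fin n → ℂ) := Matrix.toLinearEquiv' Q⁻¹ ⟨Q, e1, e2⟩
  have he : ∀ v, e v = Q⁻¹ *ᵥ v := fun v => rfl
  have he' : ∀ v, e.symm v = Q *ᵥ v := by
    intro v
    apply e.injective
    rw [LinearEquiv.apply_symm_apply, he, Matrix.mulVec_mulVec, e2, Matrix.one_mulVec]
  refine ⟨A, transport σ e, isIrreducible_of_equiv (transportEquiv σ e) hσ,
    (character_eq_of_equiv (transportEquiv σ e)).symm, fun g => ?_⟩
  apply LinearMap.ext
  intro v
  rw [transport_apply, he, he', Matrix.toLin'_apply]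
  have e4 : ∀ w, σ g w = M g *ᵥ w := fun w => by
    simp only [M]
    show _ = LinearMap.toMatrix' (σ g) *ᵥ w
    rw [LinearMap.toMatrix'_mulVec]
  rw [e4, Matrix.mulVec_mulVec, Matrix.mulVec_mulVec]
  congr 1

section Red

variable {O : ValuationSubring ℂ}

/-- The complex matrices of an integral form. -/
noncomputable def Ac (A : G →* Matrix (Fin n) (Fin n) O) : G →* Matrix (Fin n) (Fin n) ℂ :=
  (O.subtype.mapMatrix : Matrix (Fin n) (Fin n) O →+* Matrix (Fin n) (Fin n) ℂ).toMonoidHom.comp A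

lemma Ac_apply (A : G →* Matrix (Fin n) (Fin n) O) (g : G) (i j : Fin n) : Ac A g i j = (A g i j : ℂ) := rfl

/-- The reduced matrices of an integral form. -/
noncomputable def Ar (A : G →* Matrix (Fin n) (Fin n) O) : G →* Matrix (Fin n) (Fin n) (IsLocalRing.ResidueField O) :=
  ((IsLocalRing.residue O).mapMatrix : Matrix (Fin n) (Fin n) O →+* Matrix (Fin n) (Fin n) _).toMonoidHom.comp A

lemma Ar_apply (A : G →* Matrix (Fin n) (Fin n) O) (g : G) (i j : Fin n) :
    Ar A g i j = IsLocalRing.residue O (A g i j) := rfl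

/-- The reduction of an integral form, as a representation. -/
noncomputable def rRep (A : G →* Matrix (Fin n) (Fin n) O) :
    G →* Module.End (IsLocalRing.ResidueField O) (Fin n → IsLocalRing.ResidueField O) :=
  (Matrix.toLinAlgEquiv' : _ ≃ₐ[IsLocalRing.ResidueField O] _).toAlgHom.toMonoidHom.comp (Ar A)

lemma rRep_apply (A : G →* Matrix (Fin n) (Fin n) O) (g : G) (v : Fin n → IsLocalRing.ResidueField O) :
    rRep A g v = Ar A g *ᵥ v := rfl

/-- Schur's relations for an irreducible matrix representation. -/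
theorem schur_mat [Fintype G] (M : G →* Matrix (Fin n) (Fin n) ℂ) {σ : Representation ℂ G (Fin n → ℂ)}
    (hσ : σ.IsIrreducible) (hM : ∀ g, σ g = Matrix.toLin' (M g)) (E : Matrix (Fin n) (Fin n) ℂ) :
    ∑ g, M g * E * M g⁻¹ = (((Nat.card G : ℂ) * E.trace) / n) • (1 : Matrix (Fin n) (Fin n) ℂ) := by
  have hn : (n : ℂ) ≠ 0 := by
    have h := finrank_pos_of_irr hσ
    simp only [finrank_fintype_fun_eq_card, Fintype.card_fin] at h
    exact_mod_cast h.ne'
  have hcomm : ∀ h, (∑ g, M g * E * M g⁻¹) * M h = M h * ∑ g, M g * E * M g⁻¹ := by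
    intro h
    rw [Finset.sum_mul, Finset.mul_sum]
    rw [← Equiv.sum_comp (Equiv.mulLeft h) (fun g => M g * E * M g⁻¹ * M h)]
    refine Finset.sum_congr rfl fun g _ => ?_
    have e : M (h * g)⁻¹ * M h = M g⁻¹ := by
      rw [← map_mul]
      congr 1
      group
    simp only [Equiv.coe_mulLeft]
    rw [mul_assoc, e, map_mul]
    simp only [mul_assoc]
  obtain ⟨c, hc⟩ := schur_scalar σ hσ (Matrix.toLin' (∑ g, M g * E * M g⁻¹)) (by
    intro h v
    rw [hM]
    simp only [Matrix.toLin'_apply, Matrix.mulVec_mulVec]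
    rw [hcomm])
  have h1 : ∑ g, M g * E * M g⁻¹ = c • (1 : Matrix (Fin n) (Fin n) ℂ) := by
    apply Matrix.toLin'.injective
    rw [hc, map_smul, Matrix.toLin'_one]
    rfl
  have h2 := congrArg Matrix.trace h1
  have h3 : ∀ g, (M g * E * M g⁻¹).trace = E.trace := by
    intro g
    rw [Matrix.trace_mul_comm, ← mul_assoc, ← map_mul]
    simp
  rw [Matrix.trace_sum, Finset.sum_congr rfl (fun g _ => h3 g), Finset.sum_const, Finset.card_univ, Matrix.trace_smul,
    Matrix.trace_one] at h2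
  simp only [Fintype.card_fin, nsmul_eq_mul, smul_eq_mul] at h2
  rw [h1, Nat.card_eq_fintype_card, h2]
  congr 1
  field_simp

lemma mul_single_mul {R : Type*} [CommRing R] [DecidableEq (Fin n)] (X Y : Matrix (Fin n) (Fin n) R) (a b : Fin n) (d : R) (i j : Fin n) :
    (X * Matrix.single a b d * Y) i j = X i a * d * Y b j := by
  rw [Matrix.mul_apply, Finset.sum_eq_single b]
  · rw [Matrix.mul_apply, Finset.sum_eq_single a]
    · simp
    · intro c _ hc
      simp [Matrix.single_apply, hc.symm]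
    · simp
  · intro c _ hc
    rw [Matrix.mul_apply, Finset.sum_eq_zero, zero_mul]
    intro e _
    simp [Matrix.single_apply, hc.symm]
  · simp

/-- Schur's relations entry by entry. -/
theorem schur_entries [Fintype G] (M : G →* Matrix (Fin n) (Fin n) ℂ) {σ : Representation ℂ G (Fin n → ℂ)}
    (hσ : σ.IsIrreducible) (hM : ∀ g, σ g = Matrix.toLin' (M g)) (i a b j : Fin n) :
    ∑ g, M g i a * M g⁻¹ b j = if a = b ∧ i = j then (Nat.card G : ℂ) / n else 0 := by
  classical
  have h := congrFun (congrFun (schur_mat M hσ hM (Matrix.single a b 1)) i) j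
  rw [Matrix.sum_apply] at h
  have e : ∀ g, (M g * (Matrix.single a b 1 : Matrix (Fin n) (Fin n) ℂ) * M g⁻¹) i j = M g i a * M g⁻¹ b j := by
    intro g
    rw [mul_single_mul, mul_one]
  simp only [e] at h
  rw [h]
  by_cases hab : a = b
  · subst hab
    by_cases hij : i = j
    · subst hij
      simp [Matrix.trace_single_eq_same]
    · simp [Matrix.trace_single_eq_same, hij]
  · simp [Matrix.trace_single_eq_of_ne _ _ _ hab, hab]

/-- The reduction of Schur's relations. -/
theorem red_orth [Fintype G] {p : ℕ} (hpp : p.Prime) (hp : (p : ℂ) ∈ O.nonunits) (A : G →* Matrix (Fin n) (Fin n) O)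
    {σ : Representation ℂ G (Fin n → ℂ)} (hσ : σ.IsIrreducible) (hM : ∀ g, σ g = Matrix.toLin' (Ac A g))
    (hn : p ^ (Nat.card G).factorization p ∣ n) :
    ∃ c : IsLocalRing.ResidueField O, ∀ i a b j,
      ∑ g, c * Ar A g i a * Ar A g⁻¹ b j = if a = b ∧ i = j then 1 else 0 := by
  classical
  have hdvd : n ∣ Nat.card G := by
    have h := finrank_dvd_card σ hσ
    simpa using h
  obtain ⟨m, hm⟩ := hdvd
  have hG0 : Nat.card G ≠ 0 := Nat.card_pos.ne'
  have hn0 : n ≠ 0 := fun h => hG0 (by rw [hm, h, zero_mul])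
  have hm0 : m ≠ 0 := fun h => hG0 (by rw [hm, h, mul_zero])
  have hcop : Nat.Coprime m p := by
    refine ((Nat.Prime.coprime_iff_not_dvd hpp).2 ?_).symm
    intro h
    obtain ⟨w, hw⟩ := hn
    obtain ⟨y, hy⟩ := h
    apply Nat.pow_succ_factorization_not_dvd hG0 hpp
    refine ⟨w * y, ?_⟩
    conv_lhs => rw [hm, hw, hy]
    rw [pow_succ]
    ring
  have hinv := natCast_inv_mem O hp hcop
  let c : O := ⟨((m : ℂ))⁻¹, hinv⟩
  refine ⟨IsLocalRing.residue O c, fun i a b j => ?_⟩
  have h1 := schur_entries (Ac A) hσ hM i a b j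
  have hmC : (m : ℂ) ≠ 0 := by exact_mod_cast hm0
  have hnC : (n : ℂ) ≠ 0 := by exact_mod_cast hn0
  have h2 : ∑ g, c * A g i a * A g⁻¹ b j = if a = b ∧ i = j then 1 else 0 := by
    apply Subtype.ext
    simp only [AddSubmonoidClass.coe_finset_sum, MulMemClass.coe_mul]
    have h3 : ∀ g, ((c : O) : ℂ) * (A g i a : ℂ) * (A g⁻¹ b j : ℂ) = ((m : ℂ))⁻¹ * (Ac A g i a * Ac A g⁻¹ b j) := by
      intro g
      rw [Ac_apply, Ac_apply, mul_assoc]
    simp only [h3]
    rw [← Finset.mul_sum, h1]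
    split_ifs with hh
    · rw [hm]
      push_cast
      field_simp
    · simp
  have h4 := congrArg (IsLocalRing.residue O) h2
  rw [map_sum] at h4
  simp only [map_mul] at h4
  have h5 : (IsLocalRing.residue O) (if a = b ∧ i = j then (1 : O) else 0) = if a = b ∧ i = j then 1 else 0 := by
    split_ifs <;> simp
  rw [h5] at h4
  exact h4

/-- Every matrix is a combination of the reduced matrices of a form of full `p`-part. -/
theorem red_span [Fintype G] {c : IsLocalRing.ResidueField O} (A : G →* Matrix (Fin n) (Fin n) O)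
    (h : ∀ i a b j, ∑ g, c * Ar A g i a * Ar A g⁻¹ b j = if a = b ∧ i = j then 1 else 0)
    (X : Module.End (IsLocalRing.ResidueField O) (Fin n → IsLocalRing.ResidueField O)) :
    ∃ a : G → IsLocalRing.ResidueField O, X = ∑ g, a g • rRep A g := by
  classical
  let E := LinearMap.toMatrix' X
  refine ⟨fun g => ∑ b, ∑ j, E j b * (c * Ar A g⁻¹ b j), ?_⟩
  have e1 : ∀ g, ((∑ b, ∑ j, E j b * (c * Ar A g⁻¹ b j)) • rRep A g) = Matrix.toLin' ((∑ b, ∑ j, E j b * (c * Ar A g⁻¹ b j)) • Ar A g) := by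
    intro g
    rw [map_smul]
    rfl
  simp only [e1]
  rw [← map_sum]
  have e2 : X = Matrix.toLin' E := by simp [E]
  rw [e2]
  congr 1
  ext i a
  rw [Matrix.sum_apply]
  simp only [Matrix.smul_apply, smul_eq_mul, Finset.sum_mul]
  rw [Finset.sum_comm]
  have e3 : ∀ b, ∑ g, ∑ j, E j b * (c * Ar A g⁻¹ b j) * Ar A g i a = ∑ j, E j b * (if a = b ∧ i = j then 1 else 0) := by
    intro b
    rw [Finset.sum_comm]
    refine Finset.sum_congr rfl fun j _ => ?_
    rw [← h i a b j, Finset.mul_sum]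
    refine Finset.sum_congr rfl fun g _ => ?_
    ring
  simp only [e3]
  rw [Finset.sum_eq_single a, Finset.sum_eq_single i]
  · simp
  · intro j _ hj
    simp [hj.symm]
  · simp
  · intro b _ hb
    simp [hb.symm]
  · simp

/-- The projectivity relation. -/
theorem red_proj [Fintype G] {c : IsLocalRing.ResidueField O} (A : G →* Matrix (Fin n) (Fin n) O)
    (h : ∀ i a b j, ∑ g, c * Ar A g i a * Ar A g⁻¹ b j = if a = b ∧ i = j then 1 else 0) (i₀ : Fin n) :
    ∃ f : Module.End (IsLocalRing.ResidueField O) (Fin n → IsLocalRing.ResidueField O),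
      ∑ g, rRep A g * f * rRep A g⁻¹ = 1 := by
  classical
  refine ⟨Matrix.toLin' (Matrix.single i₀ i₀ c), ?_⟩
  have e1 : ∀ g, rRep A g * Matrix.toLin' (Matrix.single i₀ i₀ c) * rRep A g⁻¹ =
      Matrix.toLin' (Ar A g * (Matrix.single i₀ i₀ c) * Ar A g⁻¹) := by
    intro g
    rw [Matrix.toLin'_mul, Matrix.toLin'_mul]
    rfl
  simp only [e1]
  rw [← map_sum]
  have e2 : ∑ g, Ar A g * (Matrix.single i₀ i₀ c) * Ar A g⁻¹ = (1 : Matrix (Fin n) (Fin n) _) := by
    ext i j
    rw [Matrix.sum_apply, Matrix.one_apply]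
    have := h i i₀ i₀ j
    simp only [true_and] at this
    rw [← this]
    refine Finset.sum_congr rfl fun g _ => ?_
    rw [mul_single_mul]
    ring
  rw [e2, Matrix.toLin'_one]
  rfl

/-- Vectors can be scaled to be primitive. -/
lemma exists_primitive (x : Fin n → ℂ) (hx : x ≠ 0) :
    ∃ c : ℂ, c ≠ 0 ∧ ∃ y : Fin n → O, (∀ i, (y i : ℂ) = c * x i) ∧ (fun i => IsLocalRing.residue O (y i)) ≠ 0 := by
  classical
  have : Nonempty (Fin n) := by
    by_contra h
    rw [not_nonempty_iff] at h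
    exact hx (Subsingleton.elim _ _)
  obtain ⟨i₀, hi₀⟩ := Finite.exists_max (fun i => O.valuation (x i))
  have h0 : x i₀ ≠ 0 := by
    intro h
    apply hx
    ext i
    have h1 := hi₀ i
    rw [h, map_zero] at h1
    have h2 := le_antisymm h1 zero_le'
    simpa using h2
  have hmem : ∀ i, (x i₀)⁻¹ * x i ∈ O := by
    intro i
    rw [← O.valuation_le_one_iff, map_mul, map_inv₀]
    have hpos : O.valuation (x i₀) ≠ 0 := (Valuation.ne_zero_iff _).2 h0
    calc _ ≤ (O.valuation (x i₀))⁻¹ * O.valuation (x i₀) := by gcongr; exact hi₀ i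
      _ = 1 := inv_mul_cancel₀ hpos
  refine ⟨(x i₀)⁻¹, inv_ne_zero h0, fun i => ⟨_, hmem i⟩, fun i => rfl, ?_⟩
  intro h
  have h1 := congrFun h i₀
  simp only [Pi.zero_apply] at h1
  have h2 : (⟨(x i₀)⁻¹ * x i₀, hmem i₀⟩ : O) = 1 := by
    apply Subtype.ext
    show (x i₀)⁻¹ * x i₀ = 1
    exact inv_mul_cancel₀ h0
  rw [h2, map_one] at h1
  exact one_ne_zero h1

/-- Fixed vectors reduce to fixed vectors. -/
lemma rRep_fix (A : G →* Matrix (Fin n) (Fin n) O) {g : G} {y : Fin n → O}
    (h : Ac A g *ᵥ (fun i => (y i : ℂ)) = fun i => (y i : ℂ)) :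
    rRep A g (fun i => IsLocalRing.residue O (y i)) = fun i => IsLocalRing.residue O (y i) := by
  have h1 : A g *ᵥ y = y := by
    ext i
    have h2 := congrFun h i
    have h3 := RingHom.map_mulVec O.subtype (A g) y i
    exact (h3.trans h2)
  rw [rRep_apply]
  ext i
  have h3 := RingHom.map_mulVec (IsLocalRing.residue O) (A g) y i
  rw [h1] at h3
  exact h3.symm

end Red

end Cfsg.Agent.Lib.BNSt
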