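/-
Subgroups of `U` weakly closed in `U`: they are the unipotent radicals of standard parabolic subgroups.
-/
import Cfsg.Agent.Lib.Chev.Uni
import Cfsg.Agent.Lib.Chev.SubH
import Cfsg.Agent.Lib.Chev.BNP
import Cfsg.Agent.Lib.Chev.HForm
import Cfsg.Agent.Lib.Chev.Good3
import Cfsg.Agent.Lib.Chev.Simple
import Mathlib.FieldTheory.Finite.Basic

set_option autoImplicit false

namespace Cfsg.Agent.Lib.BNSt

open Cfsg Cfsg.Lie Cfsg.Agent.Lib.Chev

variable {F : Type*} [Field F] {D : ChevalleyDatum} {T : Tbl}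

/-- The root `r` has its whole root subgroup inside `X`. -/
def PsiR (hG : T.Good3 D) (X : Subgroup (GL D.Idx F)) (r : ℕ) : Prop :=
  ∀ (hr : r < D.nroots) (t : F), hG.xU hr t ∈ X

/-- A leading term at `k` of an element of `X` forces the root subgroup of `k` into `X`. -/
def LeadR (hG : T.Good3 D) (X : Subgroup (GL D.Idx F)) (k : ℕ) : Prop :=
  ∀ (hk : k < D.nroots) (c : F), c ≠ 0 → ∀ u ∈ Uge D F (k + 1), hG.xU hk c * u ∈ X → PsiR hG X k

/-- An element of `H` acting non-trivially on `X_k` and trivially on `X_k'`. -/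
def SepR (hG : T.Good3 D) (k k' : ℕ) : Prop :=
  ∀ (hk : k < D.nroots) (hk' : k' < D.nroots), ∃ h ∈ D.diagonalSubgroup F, ∃ χ : F, χ ≠ 1 ∧
    (∀ t, h * hG.xU hk t * h⁻¹ = hG.xU hk (χ * t)) ∧ (∀ t, h * hG.xU hk' t * h⁻¹ = hG.xU hk' t)

/-- The numerical condition that a pair of roots gives a commutator term with unit coefficient. -/
def ClOK (T : Tbl) (j r r' s : ℕ) : Prop :=
  r' < r ∧ T.n / 2 ≤ r' ∧ s < T.n ∧ T.n / 2 ≤ s ∧ s ≠ r' ∧ T.cor r' j ≠ 0 ∧ ((T.commT r' s).map Prod.fst).Nodup ∧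
    ∃ c ∈ T.commT r' s, c.1 = r ∧ (c.2.1 = 1 ∨ c.2.1 = -1)

instance (T : Tbl) (j r r' s : ℕ) : Decidable (ClOK T j r r' s) := by
  unfold ClOK
  infer_instance

/-- The closure check: every root with `j` in its support arises from a lower one by a commutator. -/
noncomputable def chkCl (T : Tbl) (cands : ℕ → List (ℕ × ℕ)) : Bool :=
  allBelow T.l fun j => allBelow T.n fun r =>
    decide (r < T.n / 2) || decide (T.cor r j = 0) || decide (T.simple j = r) ||
      (cands r).any fun p => decide (ClOK T j r p.1 p.2)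

/-- The numerical condition for a root to separate. -/
def SepOK (T : Tbl) (dmax : ℤ) (σ k k' : ℕ) : Prop :=
  T.pairT σ k' = 0 ∧ T.pairT σ k ≠ 0 ∧ -dmax ≤ T.pairT σ k ∧ T.pairT σ k ≤ dmax

noncomputable instance (T : Tbl) (dmax : ℤ) (σ k k' : ℕ) : Decidable (SepOK T dmax σ k k') := by
  unfold SepOK
  infer_instance

/-- The separation check. -/
noncomputable def chkSep (T : Tbl) (dmax : ℤ) (exc : ℕ → ℕ → Bool) : Bool :=
  allBelow T.n fun k => decide (k < T.n / 2) || (decide (T.pairT k k = 2) && allBelow T.n fun k' =>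
    decide (k' ≤ k) || exc k k' || Nat.blt (firstI T.n fun σ => decide (SepOK T dmax σ k k')) T.n)

lemma diff_squares [Finite F] (w : F) : ∃ a b : F, w = a ^ 2 - b ^ 2 := by
  have := Fintype.ofFinite F
  by_cases h2 : ringChar F = 2
  · obtain ⟨a, ha⟩ := FiniteField.isSquare_of_char_two h2 w
    exact ⟨a, 0, by rw [ha]; ring⟩
  · have h : (2 : F) ≠ 0 := Ring.two_ne_zero h2
    refine ⟨(w + 1) / 2, (w - 1) / 2, ?_⟩
    field_simp
    ring

section

variable (hG : T.Good3 D) (X : Subgroup (GL D.Idx F))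
include hG

/-- `H` normalises `U_{≥k}`. -/
lemma H_conj_Uge {h : GL D.Idx F} (hh : h ∈ D.diagonalSubgroup F) (k : ℕ) {v : GL D.Idx F} (hv : v ∈ Uge D F k) :
    h * v * h⁻¹ ∈ Uge D F k := by
  have := hG.H_normalizes (F := F) (fun r => D.IsPosRoot r ∧ k ≤ r) (fun r hr => hr.1.1) hh
  exact (Subgroup.mem_normalizer_iff.1 this v).1 hv

/-- The root subgroup of `k` is in `X` as soon as one non-trivial element of it is. -/
lemma psi_of_mem [Finite F] (hH : ∀ h ∈ D.diagonalSubgroup F, ∀ g ∈ X, h * g * h⁻¹ ∈ X) {k : ℕ} (hk : k < D.nroots)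
    (hkk : D.pairing k k = 2) {c : F} (hc : c ≠ 0) (hx : hG.xU hk c ∈ X) : PsiR hG X k := by
  intro _ t
  have key : ∀ s : F, hG.xU hk (s ^ 2 * c) ∈ X := by
    intro s
    by_cases hs : s = 0
    · subst hs
      have e : hG.xU hk ((0 : F) ^ 2 * c) = 1 := by
        apply Units.ext
        simp [x_zero]
      rw [e]
      exact X.one_mem
    · have h1 := hH _ (hG.hU_mem hk hs) _ hx
      rw [hG.hU_conj_x hk hk hs, hkk] at h1
      exact_mod_cast h1
  obtain ⟨a, b, e⟩ := diff_squares (t / c)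
  have h3 := X.mul_mem (key a) (X.inv_mem (key b))
  rw [hG.xU_inv, hG.xU_mul] at h3
  convert h3 using 2
  have : t = (t / c) * c := by field_simp
  rw [this, e]
  ring

/-- One step of the isolation of the leading term. -/
lemma isol_step (hH : ∀ h ∈ D.diagonalSubgroup F, ∀ g ∈ X, h * g * h⁻¹ ∈ X) {k k' : ℕ} (hk : k < D.nroots)
    (hp : D.nroots / 2 ≤ k) (hk' : k' < D.nroots) (hlt : k < k') (hs : SepR (F := F) hG k k') {c : F} (hc : c ≠ 0)
    {u : GL D.Idx F} (hu : u ∈ Uge D F k') (hy : hG.xU hk c * u ∈ X) :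
    ∃ c' : F, c' ≠ 0 ∧ ∃ u' ∈ Uge D F (k' + 1), hG.xU hk c' * u' ∈ X := by
  have hp' : D.nroots / 2 ≤ k' := by omega
  obtain ⟨a, v, hv, rfl⟩ := hG.Uge_mul hk' hp' hu
  obtain ⟨h, hh, χ, hχ, h1, h2⟩ := hs hk hk'
  have hz := X.mul_mem (hH h hh _ hy) (X.inv_mem hy)
  set w := h * v * h⁻¹ * v⁻¹ with hw
  have hwm : w ∈ Uge D F (k' + 1) := mul_mem (H_conj_Uge hG hh _ hv) (inv_mem hv)
  have n1 := Subgroup.mem_normalizer_iff.1 (hG.xU_normalizes_Uge hk' hp' le_rfl a)
  have hw1 : hG.xU hk' a * w * (hG.xU hk' a)⁻¹ ∈ Uge D F (k' + 1) := (n1 w).1 hwm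
  have n2 := Subgroup.mem_normalizer_iff.1 (hG.xU_normalizes_Uge hk hp hlt.le c)
  have hw2 := (n2 _).1 hw1
  refine ⟨(χ - 1) * c, mul_ne_zero (sub_ne_zero.2 hχ) hc, _, hw2, ?_⟩
  have e : hG.xU hk ((χ - 1) * c) = hG.xU hk (χ * c) * (hG.xU hk c)⁻¹ := by
    rw [hG.xU_inv, hG.xU_mul]
    congr 1
    ring
  have e2 : h * (hG.xU hk c * (hG.xU hk' a * v)) * h⁻¹ =
      (h * hG.xU hk c * h⁻¹) * ((h * hG.xU hk' a * h⁻¹) * (h * v * h⁻¹)) := by group
  rw [e2, h1, h2] at hz
  rw [e]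
  convert hz using 1
  rw [hw]
  group

/-- Isolation of the leading term. -/
lemma isol (hH : ∀ h ∈ D.diagonalSubgroup F, ∀ g ∈ X, h * g * h⁻¹ ∈ X) {k k₁ : ℕ} (hk : k < D.nroots)
    (hp : D.nroots / 2 ≤ k) (hk₁ : k < k₁) {k₂ : ℕ} (h12 : k₁ ≤ k₂) (hk₂ : k₂ ≤ D.nroots)
    (hs : ∀ k', k₁ ≤ k' → k' < k₂ → SepR (F := F) hG k k') {c : F} (hc : c ≠ 0)
    {u : GL D.Idx F} (hu : u ∈ Uge D F k₁) (hy : hG.xU hk c * u ∈ X) :
    ∃ c' : F, c' ≠ 0 ∧ ∃ u' ∈ Uge D F k₂, hG.xU hk c' * u' ∈ X := by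
  induction k₂, h12 using Nat.le_induction with
  | base => exact ⟨c, hc, u, hu, hy⟩
  | succ m hm ih =>
    obtain ⟨c', hc', u', hu', hy'⟩ := ih (by omega) (fun k' h1 h2 => hs k' h1 (by omega))
    exact isol_step hG X hH hk hp (by omega) (by omega) (hs m hm (by omega)) hc' hu' hy'

/-- Separation from all higher roots gives the leading term property. -/
lemma lead_of_sep [Finite F] (hH : ∀ h ∈ D.diagonalSubgroup F, ∀ g ∈ X, h * g * h⁻¹ ∈ X) {k : ℕ}
    (hp : D.nroots / 2 ≤ k) (hkk : D.pairing k k = 2)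
    (hs : ∀ k', k < k' → k' < D.nroots → SepR (F := F) hG k k') : LeadR hG X k := by
  intro hk c hc u hu hy
  obtain ⟨c', hc', u', hu', hy'⟩ := isol hG X hH hk hp (Nat.lt_succ_self k) (by omega : k + 1 ≤ D.nroots) le_rfl
    (fun k' h1 h2 => hs k' (by omega) h2) hc hu hy
  rw [Tbl.Good2.Uge_top] at hu'
  have e := Subgroup.mem_bot.1 hu'
  subst e
  rw [mul_one] at hy'
  exact psi_of_mem hG X hH hk hkk hc' hy'

/-- An element of `H` given by a single root separates. -/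
lemma sep_of_root {σ k k' : ℕ} (hσ : σ < D.nroots) {c : F} (hc : c ≠ 0) (h0 : D.pairing σ k' = 0)
    (h1 : c ^ D.pairing σ k ≠ 1) : SepR (F := F) hG k k' := by
  intro hk hk'
  refine ⟨hG.hU hσ hc, hG.hU_mem hσ hc, _, h1, fun t => hG.hU_conj_x hσ hk hc t, fun t => ?_⟩
  rw [hG.hU_conj_x hσ hk' hc, h0, zpow_zero, one_mul]

/-- The commutator word of an element of `X` with leading root element. -/
lemma comm_word_mem (hU : ∀ u ∈ D.posUnipotent F, ∀ g ∈ X, u * g * u⁻¹ ∈ X) {r s : ℕ} (hr : r < D.nroots)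
    (hs : s < D.nroots) (hrp : D.nroots / 2 ≤ r) (hsp : D.nroots / 2 ≤ s) (hne : s ≠ r) {t u : F}
    {v : GL D.Idx F} (hy : hG.xU hr t * v ∈ X) (hcomm : hG.xU hs u * v = v * hG.xU hs u) :
    ∃ g ∈ X, (g : Matrix D.Idx D.Idx F) = D.wordMat F (D.commWord F r s t u) := by
  have hUr : hG.xU hr t ∈ D.posUnipotent F := Subgroup.subset_closure ⟨r, t, (hG.isPos_iff hr).2 hrp, rfl⟩
  have hUs : hG.xU hs u ∈ D.posUnipotent F := Subgroup.subset_closure ⟨s, u, (hG.isPos_iff hs).2 hsp, rfl⟩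
  have hz := X.mul_mem (hU _ hUs _ hy) (X.inv_mem hy)
  have hneg : s ≠ D.neg r := by
    have h4 := hG.neg_add hr
    have h5 := hG.even_n
    omega
  have hcm := hG.x_comm hr hs hne hneg t u
  set a := hG.xU hs u with ha
  set b := hG.xU hr t with hb
  have hv : v * a⁻¹ * v⁻¹ = a⁻¹ := by
    rw [mul_inv_eq_iff_eq_mul, eq_inv_mul_iff_mul_eq, ← mul_assoc, hcomm, mul_assoc, mul_inv_cancel, mul_one]
  refine ⟨a⁻¹ * b⁻¹ * a * b, ?_, ?_⟩
  · have hc' := hU _ (mul_mem (inv_mem hUs) (inv_mem hUr)) _ hz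
    have e : a⁻¹ * b⁻¹ * a * b = a⁻¹ * b⁻¹ * (a * (b * v) * a⁻¹ * (b * v)⁻¹) * (a⁻¹ * b⁻¹)⁻¹ := by
      have e1 : a * (b * v) * a⁻¹ * (b * v)⁻¹ = a * b * (v * a⁻¹ * v⁻¹) * b⁻¹ := by group
      rw [e1, hv]
      group
    rw [e]
    exact hc'
  · have h1 : (a : Matrix D.Idx D.Idx F) * b = b * a * D.wordMat F (D.commWord F r s t u) := hcm
    have h2 : ((a⁻¹ * b⁻¹ * a * b : GL D.Idx F) : Matrix D.Idx D.Idx F) =
        ((a⁻¹ * b⁻¹ : GL D.Idx F) : Matrix D.Idx D.Idx F) * ((a : Matrix D.Idx D.Idx F) * b) := by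
      simp only [Units.val_mul, mul_assoc]
    rw [h2, h1, ← mul_assoc, ← mul_assoc]
    have h3 : ((a⁻¹ * b⁻¹ : GL D.Idx F) : Matrix D.Idx D.Idx F) * b * a = 1 := by
      have : ((a⁻¹ * b⁻¹ * (b * a) : GL D.Idx F) : Matrix D.Idx D.Idx F) = 1 := by
        rw [show a⁻¹ * b⁻¹ * (b * a) = 1 by group]
        rfl
      rw [Units.val_mul, Units.val_mul b a, ← mul_assoc] at this
      exact this
    rw [h3, one_mul]

/-- Words with all letters in a subgroup lie in the subgroup. -/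
lemma word_mem (K : Subgroup (GL D.Idx F)) : ∀ (l : List (ℕ × F)) (g : GL D.Idx F),
    (∀ p ∈ l, ∃ hp : p.1 < D.nroots, hG.xU hp p.2 ∈ K) →
    (g : Matrix D.Idx D.Idx F) = D.wordMat F l → g ∈ K := by
  intro l
  induction l with
  | nil =>
    intro g _ e
    have : g = 1 := Units.ext (by rw [e, wordMat_nil]; rfl)
    rw [this]
    exact one_mem _
  | cons a l ih =>
    intro g hl e
    obtain ⟨ha, hx⟩ := hl a (by simp)
    have h2 : (hG.xU ha a.2)⁻¹ * g ∈ K := by
      refine ih _ (fun p hp => hl p (List.mem_cons_of_mem _ hp)) ?_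
      have e1 : (g : Matrix D.Idx D.Idx F) = (hG.xU ha a.2 : GL D.Idx F) * D.wordMat F l := by
        rw [e, wordMat_cons, Tbl.Good.xU_coe]
      rw [Units.val_mul, e1, ← mul_assoc, Units.inv_mul, one_mul]
    have e3 : g = hG.xU ha a.2 * ((hG.xU ha a.2)⁻¹ * g) := by group
    rw [e3]
    exact mul_mem hx h2

/-- All letters with non-zero coefficient of a word of positive roots in `X` have their root subgroup in `X`. -/
lemma peel (hU : ∀ u ∈ D.posUnipotent F, ∀ g ∈ X, u * g * u⁻¹ ∈ X) : ∀ (m : ℕ) (l : List (ℕ × F)), l.length = m →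
    (∀ p ∈ l, D.nroots / 2 ≤ p.1 ∧ p.1 < D.nroots) → (l.map Prod.fst).Nodup → (∀ p ∈ l, LeadR hG X p.1) →
    ∀ g ∈ X, (g : Matrix D.Idx D.Idx F) = D.wordMat F l → ∀ p ∈ l, p.2 ≠ 0 → PsiR hG X p.1 := by
  intro m
  induction m with
  | zero =>
    intro l hm _ _ _ g _ _ p hp _
    rw [List.length_eq_zero_iff] at hm
    subst hm
    simp at hp
  | succ m ih =>
    intro l hm hl hnd hlead g hg e p hp hp0
    obtain ⟨p₀, hp₀, hp₀0, hmin⟩ : ∃ p₀ ∈ l, p₀.2 ≠ 0 ∧ ∀ q ∈ l, q.2 ≠ 0 → p₀.1 ≤ q.1 := by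
      classical
      let Q : ℕ → Prop := fun k => ∃ p ∈ l, p.2 ≠ 0 ∧ p.1 = k
      have hQ : ∃ k, Q k := ⟨p.1, p, hp, hp0, rfl⟩
      obtain ⟨p₀, hp₀, hp₀0, hp₀k⟩ := Nat.find_spec hQ
      refine ⟨p₀, hp₀, hp₀0, fun q hq hq0 => ?_⟩
      rw [hp₀k]
      exact Nat.find_min' hQ ⟨q, hq, hq0, rfl⟩
    obtain ⟨l₁, l₂, rfl⟩ := List.append_of_mem hp₀
    obtain ⟨k, v⟩ := p₀
    simp only at hp₀0 hmin
    rw [List.map_append, List.map_cons] at hnd
    have hnd1 := (List.nodup_append.1 hnd).1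
    have hnd2 := (List.nodup_append.1 hnd).2.1
    have hnd3 := (List.nodup_append.1 hnd).2.2
    have hk1 := hl (k, v) (by simp)
    have hkn := hk1.2
    have hkp := hk1.1
    have hletters : ∀ q ∈ l₁ ++ l₂, q.2 ≠ 0 → k + 1 ≤ q.1 := by
      intro q hq hq0
      have hq' : q ∈ l₁ ++ (k, v) :: l₂ := by
        rcases List.mem_append.1 hq with h | h
        · exact List.mem_append.2 (Or.inl h)
        · exact List.mem_append.2 (Or.inr (List.mem_cons_of_mem _ h))
      have h1 : k ≤ q.1 := hmin q hq' hq0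
      have h2 : q.1 ≠ k := by
        intro he
        rcases List.mem_append.1 hq with h | h
        · exact hnd3 q.1 (List.mem_map_of_mem h) k (by simp) he
        · simp only [List.nodup_cons] at hnd2
          exact hnd2.1 (he ▸ List.mem_map_of_mem h)
      omega
    have hmemU : ∀ l' : List (ℕ × F), (∀ q ∈ l', q ∈ l₁ ++ l₂) → ∀ g' : GL D.Idx F,
        (g' : Matrix D.Idx D.Idx F) = D.wordMat F l' → g' ∈ Uge D F (k + 1) := by
      intro l' hl' g' e'
      refine word_mem hG _ l' g' (fun q hq => ?_) e'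
      have hq' := hl' q hq
      have hq2 : q ∈ l₁ ++ (k, v) :: l₂ := by
        rcases List.mem_append.1 hq' with h | h
        · exact List.mem_append.2 (Or.inl h)
        · exact List.mem_append.2 (Or.inr (List.mem_cons_of_mem _ h))
      have hq3 := hl q hq2
      refine ⟨hq3.2, ?_⟩
      by_cases hq0 : q.2 = 0
      · have : hG.xU hq3.2 q.2 = 1 := by
          apply Units.ext
          simp [hq0, x_zero]
        rw [this]
        exact one_mem _
      · exact hG.xU_mem_Uge hq3.2 hq3.1 (hletters q hq' hq0) _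
    obtain ⟨A, _, eA⟩ := hG.exists_word (F := F) l₁ (fun q hq =>
      (hl q (List.mem_append.2 (Or.inl hq))).2)
    obtain ⟨B, _, eB⟩ := hG.exists_word (F := F) l₂ (fun q hq =>
      (hl q (List.mem_append.2 (Or.inr (List.mem_cons_of_mem _ hq)))).2)
    have hA : A ∈ Uge D F (k + 1) := hmemU l₁ (fun q hq => List.mem_append.2 (Or.inl hq)) A eA
    have hB : B ∈ Uge D F (k + 1) := hmemU l₂ (fun q hq => List.mem_append.2 (Or.inr hq)) B eB
    have egl : g = A * hG.xU hkn v * B := by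
      apply Units.ext
      rw [e, wordMat_append, wordMat_cons, Units.val_mul, Units.val_mul, eA, eB, Tbl.Good.xU_coe, mul_assoc]
    have n2 := Subgroup.mem_normalizer_iff.1 (hG.xU_normalizes_Uge hkn hkp le_rfl v)
    have hu1 : (hG.xU hkn v)⁻¹ * A * (hG.xU hkn v) ∈ Uge D F (k + 1) := by
      have := (n2 ((hG.xU hkn v)⁻¹ * A * (hG.xU hkn v))).2
      apply this
      convert hA using 1
      group
    have hPk : PsiR hG X k := by
      refine hlead (k, v) (by simp) hkn v hp₀0 _ (mul_mem hu1 hB) ?_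
      rw [show hG.xU hkn v * ((hG.xU hkn v)⁻¹ * A * hG.xU hkn v * B) = A * hG.xU hkn v * B by group, ← egl]
      exact hg
    by_cases hpe : p = (k, v)
    · rw [hpe]
      exact hPk
    have hAU : A ∈ D.posUnipotent F := Tbl.Good2.Uge_le _ hA
    have hAB : A * B ∈ X := by
      have h1 := hU A hAU _ (hPk hkn v)
      have h2 := X.mul_mem (X.inv_mem h1) hg
      rw [egl] at h2
      convert h2 using 1
      group
    have hpmem : p ∈ l₁ ++ l₂ := by
      rcases List.mem_append.1 hp with h | h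
      · exact List.mem_append.2 (Or.inl h)
      · rcases List.mem_cons.1 h with h | h
        · exact absurd h hpe
        · exact List.mem_append.2 (Or.inr h)
    refine ih (l₁ ++ l₂) ?_ ?_ ?_ ?_ (A * B) hAB ?_ p hpmem hp0
    · simp only [List.length_append, List.length_cons] at hm ⊢
      omega
    · intro q hq
      apply hl
      rcases List.mem_append.1 hq with h | h
      · exact List.mem_append.2 (Or.inl h)
      · exact List.mem_append.2 (Or.inr (List.mem_cons_of_mem _ h))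
    · rw [List.map_append]
      simp only [List.nodup_cons] at hnd2
      refine List.nodup_append.2 ⟨hnd1, hnd2.2, fun a ha b hb => hnd3 a ha b (List.mem_cons_of_mem _ hb)⟩
    · intro q hq
      apply hlead
      rcases List.mem_append.1 hq with h | h
      · exact List.mem_append.2 (Or.inl h)
      · exact List.mem_append.2 (Or.inr (List.mem_cons_of_mem _ h))
    · rw [wordMat_append, Units.val_mul, eA, eB]

/-- A commutator term with unit coefficient has its root subgroup in `X`. -/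
lemma psi_of_comm (hU : ∀ u ∈ D.posUnipotent F, ∀ g ∈ X, u * g * u⁻¹ ∈ X) {r s : ℕ} (hr : r < D.nroots)
    (hs : s < D.nroots) (hrp : D.nroots / 2 ≤ r) (hsp : D.nroots / 2 ≤ s) (hne : s ≠ r) {t u : F} (ht : t ≠ 0)
    (hu : u ≠ 0) {v : GL D.Idx F} (hy : hG.xU hr t * v ∈ X) (hcomm : hG.xU hs u * v = v * hG.xU hs u)
    (hnd : ((T.commT r s).map Prod.fst).Nodup) (hlead : ∀ c ∈ T.commT r s, LeadR hG X c.1)
    {c : ℕ × ℤ × ℕ × ℕ} (hc : c ∈ T.commT r s) (hC : c.2.1 = 1 ∨ c.2.1 = -1) : PsiR hG X c.1 := by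
  obtain ⟨g, hg, e⟩ := comm_word_mem hG X hU hr hs hrp hsp hne hy hcomm
  have hcT := Tbl.commT_eq hG.correct hG.sane hr hs
  refine peel hG X hU _ (D.commWord F r s t u) rfl ?_ ?_ ?_ g hg e (c.1, (c.2.1 : F) * (-t) ^ c.2.2.1 * u ^ c.2.2.2) ?_ ?_
  · intro p hp
    unfold ChevalleyDatum.commWord at hp
    obtain ⟨c', hc', rfl⟩ := List.mem_map.1 hp
    have h1 := hG.commTerms_order hr hs hrp hsp hne hc'
    have h2 := hG.commTerms_lt hr hs c' hc'
    exact ⟨by simp only; omega, h2⟩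
  · unfold ChevalleyDatum.commWord
    rw [List.map_map, hcT]
    exact hnd
  · intro p hp
    unfold ChevalleyDatum.commWord at hp
    obtain ⟨c', hc', rfl⟩ := List.mem_map.1 hp
    rw [hcT] at hc'
    exact hlead c' hc'
  · unfold ChevalleyDatum.commWord
    rw [hcT]
    exact List.mem_map.2 ⟨c, hc, rfl⟩
  · simp only
    refine mul_ne_zero (mul_ne_zero ?_ (pow_ne_zero _ (neg_ne_zero.2 ht))) (pow_ne_zero _ hu)
    rcases hC with h | h <;> rw [h] <;> simp

/-- `X` is generated by its full root subgroups, given the leading term property. -/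
lemma gen_of_lead (hlead : ∀ k, D.nroots / 2 ≤ k → k < D.nroots → LeadR hG X k) : ∀ m k, k + m = D.nroots →
    D.nroots / 2 ≤ k → ∀ g ∈ X, g ∈ Uge D F k → g ∈ rootsGen D F (fun r => D.IsPosRoot r ∧ PsiR hG X r) := by
  intro m
  induction m with
  | zero =>
    intro k hk _ g _ hgU
    have e : k = D.nroots := by omega
    rw [e, Tbl.Good2.Uge_top] at hgU
    rw [Subgroup.mem_bot.1 hgU]
    exact one_mem _
  | succ m ih =>
    intro k hk hp g hg hgU
    have hkn : k < D.nroots := by omega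
    obtain ⟨t, u, hu, rfl⟩ := hG.Uge_mul hkn hp hgU
    by_cases ht : t = 0
    · have e : hG.xU hkn t = 1 := by
        apply Units.ext
        simp [ht, x_zero]
      rw [e, one_mul] at hg ⊢
      exact ih (k + 1) (by omega) (by omega) u hg hu
    · have hP := hlead k hp hkn hkn t ht u hu hg
      have hu2 : u ∈ X := by
        have := X.mul_mem (X.inv_mem (hP hkn t)) hg
        rwa [inv_mul_cancel_left] at this
      exact mul_mem (Subgroup.subset_closure ⟨k, t, ⟨(hG.isPos_iff hkn).2 hp, hP⟩, rfl⟩) (ih (k + 1) (by omega) (by omega) u hu2 hu)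

/-- `X` lies in the subgroup generated by its full root subgroups. -/
lemma le_rootsGen (hXU : X ≤ D.posUnipotent F) (hlead : ∀ k, D.nroots / 2 ≤ k → k < D.nroots → LeadR hG X k) :
    X ≤ rootsGen D F (fun r => D.IsPosRoot r ∧ PsiR hG X r) := by
  intro g hg
  refine gen_of_lead hG X hlead (D.nroots - D.nroots / 2) (D.nroots / 2) (by omega) le_rfl g hg ?_
  rw [hG.Uge_half]
  exact hXU hg

lemma wc_conj (hXU : X ≤ D.posUnipotent F)
    (hwc : ∀ g ∈ D.group F, X.map (MulAut.conj g).toMonoidHom ≤ D.posUnipotent F → X.map (MulAut.conj g).toMonoidHom = X)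
    {g : GL D.Idx F} (hg : g ∈ D.group F) (hle : ∀ x ∈ X, g * x * g⁻¹ ∈ D.posUnipotent F) :
    ∀ x ∈ X, g * x * g⁻¹ ∈ X := by
  have h1 : X.map (MulAut.conj g).toMonoidHom ≤ D.posUnipotent F := by
    rintro _ ⟨x, hx, rfl⟩
    exact hle x hx
  have h2 := hwc g hg h1
  intro x hx
  rw [← h2]
  exact ⟨x, hx, rfl⟩

lemma U_conj_of_wc (hXU : X ≤ D.posUnipotent F)
    (hwc : ∀ g ∈ D.group F, X.map (MulAut.conj g).toMonoidHom ≤ D.posUnipotent F → X.map (MulAut.conj g).toMonoidHom = X) :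
    ∀ u ∈ D.posUnipotent F, ∀ g ∈ X, u * g * u⁻¹ ∈ X := fun u hu g hg =>
  wc_conj hG X hXU hwc (hG.U_le_group hu) (fun x hx => mul_mem (mul_mem hu (hXU hx)) (inv_mem hu)) g hg

lemma H_conj_of_wc (hXU : X ≤ D.posUnipotent F)
    (hwc : ∀ g ∈ D.group F, X.map (MulAut.conj g).toMonoidHom ≤ D.posUnipotent F → X.map (MulAut.conj g).toMonoidHom = X) :
    ∀ h ∈ D.diagonalSubgroup F, ∀ g ∈ X, h * g * h⁻¹ ∈ X := fun h hh g hg => by
  refine wc_conj hG X hXU hwc (hG.H_le_group hh) (fun x hx => ?_) g hg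
  have := hG.H_normalizes (F := F) D.IsPosRoot (fun r hr => hr.1) hh
  exact (Subgroup.mem_normalizer_iff.1 this x).1 (hXU hx)

/-- Reflections in simple roots outside `X` preserve the full root subgroups of `X`. -/
lemma refl_psi (hXU : X ≤ D.posUnipotent F)
    (hwc : ∀ g ∈ D.group F, X.map (MulAut.conj g).toMonoidHom ≤ D.posUnipotent F → X.map (MulAut.conj g).toMonoidHom = X)
    (hlead : ∀ k, D.nroots / 2 ≤ k → k < D.nroots → LeadR hG X k) {j : ℕ} (hj : j < D.rank)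
    (hnot : ¬ PsiR hG X (D.simple j)) {r : ℕ} (hr : r < D.nroots) (h : PsiR hG X r) : PsiR hG X (T.refl j r) := by
  have hle : X ≤ Ui D F j := by
    refine (le_rootsGen hG X hXU hlead).trans ((Subgroup.closure_le _).2 ?_)
    rintro g ⟨s, t, ⟨hs, hP⟩, e⟩
    refine Subgroup.subset_closure ⟨s, t, hs, ?_, e⟩
    rintro rfl
    exact hnot hP
  have hn := wc_conj hG X hXU hwc (g := hG.nU hj) (hG.N_le_group (hG.nU_mem_N hj)) (fun x hx => by
    exact hG.Ui_le_U j ((Subgroup.mem_normalizer_iff.1 (hG.nU_normalizes_Ui hj) x).1 (hle hx)))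
  intro hr' t
  have h1 := hn _ (h hr ((T.eps j r : F) * t))
  rw [hG.nU_conj hj hr, ← mul_assoc, hG.eps_mul_self hj hr, one_mul] at h1
  exact h1

/-- The closure under commutators. -/
lemma up_psi {cands : ℕ → List (ℕ × ℕ)} (hcl : chkCl T cands = true)
    (hU : ∀ u ∈ D.posUnipotent F, ∀ g ∈ X, u * g * u⁻¹ ∈ X)
    (hlead : ∀ k, D.nroots / 2 ≤ k → k < D.nroots → LeadR hG X k) {j : ℕ} (hj : j < D.rank)
    (hs : PsiR hG X (D.simple j)) : ∀ r, r < D.nroots → D.nroots / 2 ≤ r →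
      (D.coroot.getD r #[]).getD j 0 ≠ 0 → PsiR hG X r := by
  intro r
  induction r using Nat.strong_induction_on with
  | _ r ih =>
    intro hr hp hc
    have h := allBelow_spec (allBelow_spec hcl j (hG.lt_l hj)) r (hG.lt_n hr)
    simp only [Bool.or_eq_true, decide_eq_true_eq, List.any_eq_true] at h
    have hn := hG.correct.n_eq
    have hl := hG.correct.l_eq
    rcases h with ((h | h) | h) | ⟨p, _, hpp⟩
    · rw [hn] at h
      omega
    · rw [hG.correct.cor_eq r j hr hj] at h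
      exact absurd h hc
    · rw [hG.correct.simple_eq j hj] at h
      rw [← h]
      exact hs
    · obtain ⟨h1, h2, h3, h4, h5, h6, h7, c, hc', h8, h9⟩ := hpp
      rw [hn] at h2 h3 h4
      have hr' : p.1 < D.nroots := by omega
      rw [hG.correct.cor_eq p.1 j hr' hj] at h6
      have hP := ih p.1 h1 hr' h2 h6
      rw [← h8]
      refine psi_of_comm hG X hU hr' h3 h2 h4 h5 (t := 1) (u := 1) (v := 1) one_ne_zero one_ne_zero ?_ (by simp) h7
        (fun c' hc'' => ?_) hc' h9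
      · rw [mul_one]
        exact hP hr' 1
      · have hc3 : c' ∈ D.commTerms p.1 p.2 := by
          rw [Tbl.commT_eq hG.correct hG.sane hr' h3]
          exact hc''
        have h10 := hG.commTerms_order hr' h3 h2 h4 h5 hc3
        have h11 := hG.commTerms_lt hr' h3 c' hc3
        exact hlead _ (by omega) h11

/-- The main theorem, given the leading term property. -/
theorem wk_of_lead {cands : ℕ → List (ℕ × ℕ)} (hcl : chkCl T cands = true) (hXU : X ≤ D.posUnipotent F)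
    (hwc : ∀ g ∈ D.group F, X.map (MulAut.conj g).toMonoidHom ≤ D.posUnipotent F → X.map (MulAut.conj g).toMonoidHom = X)
    (hlead : ∀ k, D.nroots / 2 ≤ k → k < D.nroots → LeadR hG X k) :
    ∃ J : Set ℕ, (∀ j ∈ J, j < D.rank) ∧ X = D.unipotentRadical F J := by
  have hU := U_conj_of_wc hG X hXU hwc
  have hup : ∀ r, D.IsPosRoot r → ¬ D.InRootSub {j | j < D.rank ∧ ¬ PsiR hG X (D.simple j)} r → PsiR hG X r := by
    intro r hr hnot
    have : ∃ j, j < D.rank ∧ j ∉ {j | j < D.rank ∧ ¬ PsiR hG X (D.simple j)} ∧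
        (D.coroot.getD r #[]).getD j 0 ≠ 0 := by
      by_contra hcon
      push_neg at hcon
      exact hnot ⟨hr.1, fun i hi hiJ => hcon i hi hiJ⟩
    obtain ⟨j, hj, hjJ, hc⟩ := this
    have hs : PsiR hG X (D.simple j) := by
      by_contra hn
      exact hjJ ⟨hj, hn⟩
    exact up_psi hG X hcl hU hlead hj hs r hr.1 ((hG.isPos_iff hr.1).1 hr) hc
  have hdown : ∀ r, r < D.nroots → D.nroots / 2 ≤ r → D.InRootSub {j | j < D.rank ∧ ¬ PsiR hG X (D.simple j)} r →
      ¬ PsiR hG X r := by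
    intro r
    induction r using Nat.strong_induction_on with
    | _ r ih =>
      intro hr hp hJ hP
      have hsupp : ∀ i, i < D.rank → (D.coroot.getD r #[]).getD i 0 ≠ 0 → ¬ PsiR hG X (D.simple i) := by
        intro i hi hc
        by_contra hn
        exact hc (hJ.2 i hi (fun h => h.2 hn))
      rcases hG.descJ_spec hr hp with ⟨i, hi, e⟩ | ⟨i, hi, hc, hlt⟩
      · subst e
        refine hsupp i hi ?_ hP
        rw [hG.cor_simple hi hi]
        simp [deltaZ]
      · have hn := hsupp i hi hc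
        have hne : r ≠ D.simple i := by
          rintro rfl
          exact hn hP
        have hr' := hG.refl_lt' hi hr
        have hp' := hG.refl_pos hi hr hp hne
        have hJ' := hG.inRootSub_refl hi (J := {j | j < D.rank ∧ ¬ PsiR hG X (D.simple j)}) ⟨hi, hn⟩ hJ
        exact ih _ hlt hr' hp' hJ' (refl_psi hG X hXU hwc hlead hi hn hr hP)
  refine ⟨{j | j < D.rank ∧ ¬ PsiR hG X (D.simple j)}, fun j hj => hj.1, le_antisymm ?_ ?_⟩
  · refine (le_rootsGen hG X hXU hlead).trans ((Subgroup.closure_le _).2 ?_)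
    rintro g ⟨s, t, ⟨hs, hP⟩, e⟩
    refine Subgroup.subset_closure ⟨s, t, hs, fun hJ => ?_, e⟩
    exact hdown s hs.1 ((hG.isPos_iff hs.1).1 hs) hJ hP
  · refine (Subgroup.closure_le _).2 ?_
    rintro g ⟨s, t, hs, hJ, e⟩
    rw [hG.eq_xU hs.1 e]
    exact hup s hs hJ hs.1 t

/-- Root elements with no commutator terms commute. -/
lemma comm_of_nil {r s : ℕ} (hr : r < D.nroots) (hs : s < D.nroots) (hrp : D.nroots / 2 ≤ r) (hsp : D.nroots / 2 ≤ s)
    (hne : s ≠ r) (hnil : T.commT r s = []) (t u : F) : hG.xU hs u * hG.xU hr t = hG.xU hr t * hG.xU hs u := by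
  have hneg : s ≠ D.neg r := by
    have h4 := hG.neg_add hr
    have h5 := hG.even_n
    omega
  have hcm := hG.x_comm hr hs hne hneg t u
  have hcT := Tbl.commT_eq hG.correct hG.sane hr hs
  apply Units.ext
  simp only [Units.val_mul, Tbl.Good.xU_coe]
  rw [hcm]
  unfold ChevalleyDatum.commWord
  rw [hcT, hnil]
  simp [wordMat_nil]

lemma pairing_self_of_chk {dmax : ℤ} {exc : ℕ → ℕ → Bool} (hs : chkSep T dmax exc = true) {k : ℕ} (hk : k < D.nroots)
    (hp : D.nroots / 2 ≤ k) : D.pairing k k = 2 := by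
  have h := allBelow_spec hs k (hG.lt_n hk)
  simp only [Bool.or_eq_true, Bool.and_eq_true, decide_eq_true_eq] at h
  rw [hG.correct.n_eq] at h
  rcases h with h | h
  · omega
  · rw [← hG.pairT_eq hk hk]
    exact h.1

lemma sepOK_of_chk {dmax : ℤ} {exc : ℕ → ℕ → Bool} (hs : chkSep T dmax exc = true) {k k' : ℕ} (hk : k < D.nroots)
    (hp : D.nroots / 2 ≤ k) (hk' : k' < D.nroots) (hlt : k < k') (he : exc k k' = false) :
    ∃ σ, σ < D.nroots ∧ SepOK T dmax σ k k' := by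
  have h := allBelow_spec hs k (hG.lt_n hk)
  simp only [Bool.or_eq_true, Bool.and_eq_true, decide_eq_true_eq] at h
  rw [hG.correct.n_eq] at h
  rcases h with h | h
  · omega
  · have h2 := allBelow_spec h.2 k' hk'
    simp only [Bool.or_eq_true, decide_eq_true_eq] at h2
    rcases h2 with (h2 | h2) | h2
    · omega
    · rw [he] at h2
      exact absurd h2 (by simp)
    · have h3 := Nat.le_of_ble_eq_true h2
      have h4 := firstI_spec h3
      simp only [decide_eq_true_eq] at h4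
      exact ⟨_, h3, h4⟩

lemma sep_of_ok {dmax : ℤ} {c : F} (hc : c ≠ 0) (hcd : ∀ d : ℤ, d ≠ 0 → -dmax ≤ d → d ≤ dmax → c ^ d ≠ 1)
    {σ k k' : ℕ} (hσ : σ < D.nroots) (hk : k < D.nroots) (hk' : k' < D.nroots) (h : SepOK T dmax σ k k') :
    SepR (F := F) hG k k' := by
  obtain ⟨h1, h2, h3, h4⟩ := h
  rw [hG.pairT_eq hσ hk'] at h1
  rw [hG.pairT_eq hσ hk] at h2 h3 h4
  exact sep_of_root hG hσ hc h1 (hcd _ h2 h3 h4)

/-- The leading term property without exceptions. -/
lemma lead_all [Finite F] (hH : ∀ h ∈ D.diagonalSubgroup F, ∀ g ∈ X, h * g * h⁻¹ ∈ X) {dmax : ℤ} {c : F} (hc : c ≠ 0)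
    (hcd : ∀ d : ℤ, d ≠ 0 → -dmax ≤ d → d ≤ dmax → c ^ d ≠ 1) {exc : ℕ → ℕ → Bool} (hs : chkSep T dmax exc = true)
    {k : ℕ} (hk : k < D.nroots) (hp : D.nroots / 2 ≤ k) (he : ∀ k', exc k k' = false) : LeadR hG X k := by
  refine lead_of_sep hG X hH hp (pairing_self_of_chk hG hs hk hp) fun k' h1 h2 => ?_
  obtain ⟨σ, hσ, hok⟩ := sepOK_of_chk hG hs hk hp h2 h1 (he k')
  exact sep_of_ok hG hc hcd hσ hk h2 hok

/-- The facts of the commutator formula needed for `G₂(4)`. -/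
def ChkG24 (T : Tbl) : Prop :=
  T.commT 11 6 = [] ∧ T.commT 11 10 = [] ∧ T.commT 10 7 = [] ∧
  ((T.commT 10 6).map Prod.fst).Nodup ∧ (∃ c ∈ T.commT 10 6, c.1 = 11 ∧ (c.2.1 = 1 ∨ c.2.1 = -1)) ∧
  ((T.commT 6 10).map Prod.fst).Nodup ∧ (∃ c ∈ T.commT 6 10, c.1 = 11 ∧ (c.2.1 = 1 ∨ c.2.1 = -1)) ∧
  ((T.commT 6 7).map Prod.fst).Nodup ∧ (∃ c ∈ T.commT 6 7, c.1 = 10 ∧ (c.2.1 = 1 ∨ c.2.1 = -1))

instance (T : Tbl) : Decidable (ChkG24 T) := by
  unfold ChkG24
  infer_instance

/-- The pairs of roots of `G₂` which `H` does not separate for the field of four elements. -/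
def excG2 (k k' : ℕ) : Bool := (k == 6 && (k' == 10 || k' == 11)) || (k == 10 && k' == 11)

/-- The special treatment of `G₂(4)`. -/
theorem lead_g24 [Finite F] (hn : D.nroots = 12) (hH : ∀ h ∈ D.diagonalSubgroup F, ∀ g ∈ X, h * g * h⁻¹ ∈ X)
    (hU : ∀ u ∈ D.posUnipotent F, ∀ g ∈ X, u * g * u⁻¹ ∈ X) {c : F} (hc : c ≠ 0)
    (hcd : ∀ d : ℤ, d ≠ 0 → -2 ≤ d → d ≤ 2 → c ^ d ≠ 1) (hs : chkSep T 2 excG2 = true) (hf : ChkG24 T) :
    ∀ k, D.nroots / 2 ≤ k → k < D.nroots → LeadR hG X k := by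
  obtain ⟨f1, f2, f3, f4, ⟨c1, hc1, hc1e, hc1C⟩, f6, ⟨c2, hc2, hc2e, hc2C⟩, f8, ⟨c3, hc3, hc3e, hc3C⟩⟩ := hf
  have hhalf : D.nroots / 2 = 6 := by omega
  have h6 : 6 < D.nroots := by omega
  have h7 : 7 < D.nroots := by omega
  have h10 : 10 < D.nroots := by omega
  have h11 : 11 < D.nroots := by omega
  have L : ∀ k, k < D.nroots → 7 ≤ k → k ≠ 10 → LeadR hG X k := by
    intro k hk h hne
    refine lead_all hG X hH hc hcd hs hk (by omega) fun k' => ?_
    have e1 : (k == 6) = false := by simp; omega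
    have e2 : (k == 10) = false := by simp; omega
    simp [excG2, e1, e2]
  have L11 := L 11 h11 (by norm_num) (by norm_num)
  have hkk : ∀ k, k < D.nroots → 6 ≤ k → D.pairing k k = 2 := fun k hk hp =>
    pairing_self_of_chk hG hs hk (by omega)
  have top : ∀ u ∈ Uge D F 12, u = 1 := by
    intro u hu
    rw [← hn, Tbl.Good2.Uge_top] at hu
    exact Subgroup.mem_bot.1 hu
  have L10 : LeadR hG X 10 := by
    intro hk c' hc' u hu hy
    have hu' : u ∈ Uge D F 11 := hu
    obtain ⟨a, u₂, hu₂, rfl⟩ := hG.Uge_mul h11 (by omega) hu'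
    have hu₂' : u₂ = 1 := top _ hu₂
    subst hu₂'
    rw [mul_one] at hy
    have hP : PsiR hG X 11 := by
      rw [← hc1e]
      refine psi_of_comm hG X hU h10 h6 (by omega) (by omega) (by norm_num) hc' (u := 1) one_ne_zero hy
        (comm_of_nil hG h11 h6 (by omega) (by omega) (by norm_num) f1 a 1) f4 (fun c' hc'' => ?_) hc1 hc1C
      have hc3' : c' ∈ D.commTerms 10 6 := by
        rw [Tbl.commT_eq hG.correct hG.sane h10 h6]
        exact hc''
      have h1 := hG.commTerms_order h10 h6 (by omega) (by omega) (by norm_num) hc3'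
      have h2 := hG.commTerms_lt h10 h6 c' hc3'
      have : c'.1 = 11 := by omega
      rw [this]
      exact L11
    have hx := X.mul_mem hy (X.inv_mem (hP h11 a))
    rw [mul_inv_cancel_right] at hx
    exact psi_of_mem hG X hH hk (hkk 10 hk (by norm_num)) hc' hx
  have L' : ∀ k, k < D.nroots → 7 ≤ k → LeadR hG X k := by
    intro k hk h
    by_cases hk10 : k = 10
    · rw [hk10]
      exact L10
    · exact L k hk h hk10
  intro k hk1 hk2
  by_cases hk6 : 7 ≤ k
  · exact L' k hk2 hk6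
  have e6 : k = 6 := by omega
  subst e6
  intro hk c' hc' u hu hy
  have hsp : ∀ k', 7 ≤ k' → k' < 10 → SepR (F := F) hG 6 k' := by
    intro k' h1 h2
    obtain ⟨σ, hσ, hok⟩ := sepOK_of_chk hG hs h6 (by omega) (by omega : k' < D.nroots) (by omega) (by
      have e1 : (k' == 10) = false := by simp; omega
      have e2 : (k' == 11) = false := by simp; omega
      simp [excG2, e1, e2])
    exact sep_of_ok hG hc hcd hσ h6 (by omega) hok
  obtain ⟨c₁, hc₁, u₁, hu₁, hy₁⟩ := isol hG X hH hk (by omega) (k₁ := 7) (by norm_num) (k₂ := 10) (by norm_num)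
    (by omega) hsp hc' hu hy
  obtain ⟨a, u₂, hu₂, rfl⟩ := hG.Uge_mul h10 (by omega) hu₁
  have hu₂' : u₂ ∈ Uge D F 11 := hu₂
  obtain ⟨b, u₃, hu₃, rfl⟩ := hG.Uge_mul h11 (by omega) hu₂'
  have hu₃' : u₃ = 1 := top _ hu₃
  subst hu₃'
  rw [mul_one] at hy₁
  have hP11 : PsiR hG X 11 := by
    rw [← hc2e]
    refine psi_of_comm hG X hU h6 h10 (by omega) (by omega) (by norm_num) hc₁ (u := 1) one_ne_zero hy₁ ?_ f6
      (fun c' hc'' => ?_) hc2 hc2C
    · have e1 := comm_of_nil hG h11 h10 (by omega) (by omega) (by norm_num) f2 b 1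
      have e2 : hG.xU h10 1 * hG.xU h10 a = hG.xU h10 a * hG.xU h10 1 := by
        rw [hG.xU_mul, hG.xU_mul, add_comm]
      rw [← mul_assoc, e2, mul_assoc, e1, mul_assoc]
    · have hc3' : c' ∈ D.commTerms 6 10 := by
        rw [Tbl.commT_eq hG.correct hG.sane h6 h10]
        exact hc''
      have h1 := hG.commTerms_order h6 h10 (by omega) (by omega) (by norm_num) hc3'
      have h2 := hG.commTerms_lt h6 h10 c' hc3'
      have : c'.1 = 11 := by omega
      rw [this]
      exact L11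
  have hy₂ : hG.xU hk c₁ * hG.xU h10 a ∈ X := by
    have hx := X.mul_mem hy₁ (X.inv_mem (hP11 h11 b))
    rwa [← mul_assoc, mul_inv_cancel_right] at hx
  have hP10 : PsiR hG X 10 := by
    rw [← hc3e]
    refine psi_of_comm hG X hU h6 h7 (by omega) (by omega) (by norm_num) hc₁ (u := 1) one_ne_zero hy₂
      (comm_of_nil hG h10 h7 (by omega) (by omega) (by norm_num) f3 a 1) f8 (fun c' hc'' => ?_) hc3 hc3C
    have hc3' : c' ∈ D.commTerms 6 7 := by
      rw [Tbl.commT_eq hG.correct hG.sane h6 h7]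
      exact hc''
    have h1 := hG.commTerms_order h6 h7 (by omega) (by omega) (by norm_num) hc3'
    have h2 := hG.commTerms_lt h6 h7 c' hc3'
    exact L' _ h2 (by omega)
  have hx := X.mul_mem hy₂ (X.inv_mem (hP10 h10 a))
  rw [mul_inv_cancel_right] at hx
  exact psi_of_mem hG X hH hk (hkk 6 hk (by norm_num)) hc₁ hx

/-- The main theorem in the absence of exceptions. -/
theorem wk_main [Finite F] {cands : ℕ → List (ℕ × ℕ)} (hcl : chkCl T cands = true) {dmax : ℤ}
    {exc : ℕ → ℕ → Bool} (he : ∀ k k', exc k k' = false) (hs : chkSep T dmax exc = true) {c : F} (hc : c ≠ 0)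
    (hcd : ∀ d : ℤ, d ≠ 0 → -dmax ≤ d → d ≤ dmax → c ^ d ≠ 1) (hXU : X ≤ D.posUnipotent F)
    (hwc : ∀ g ∈ D.group F, X.map (MulAut.conj g).toMonoidHom ≤ D.posUnipotent F → X.map (MulAut.conj g).toMonoidHom = X) :
    ∃ J : Set ℕ, (∀ j ∈ J, j < D.rank) ∧ X = D.unipotentRadical F J := by
  refine wk_of_lead hG X hcl hXU hwc fun k hp hk => ?_
  exact lead_all hG X (H_conj_of_wc hG X hXU hwc) hc hcd hs hk hp (he k)

/-- The main theorem for `G₂(4)`. -/
theorem wk_g24 [Finite F] {cands : ℕ → List (ℕ × ℕ)} (hcl : chkCl T cands = true) (hn : D.nroots = 12)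
    (hs : chkSep T 2 excG2 = true) (hf : ChkG24 T) {c : F} (hc : c ≠ 0)
    (hcd : ∀ d : ℤ, d ≠ 0 → -2 ≤ d → d ≤ 2 → c ^ d ≠ 1) (hXU : X ≤ D.posUnipotent F)
    (hwc : ∀ g ∈ D.group F, X.map (MulAut.conj g).toMonoidHom ≤ D.posUnipotent F → X.map (MulAut.conj g).toMonoidHom = X) :
    ∃ J : Set ℕ, (∀ j ∈ J, j < D.rank) ∧ X = D.unipotentRadical F J :=
  wk_of_lead hG X hcl hXU hwc (lead_g24 hG X hn (H_conj_of_wc hG X hXU hwc) (U_conj_of_wc hG X hXU hwc) hc hcd hs hf)

end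

/-- An element of the multiplicative group with no small power equal to one. -/
lemma exists_good_c [Finite F] {dmax : ℤ} (h : dmax < Nat.card F - 1) :
    ∃ c : F, c ≠ 0 ∧ ∀ d : ℤ, d ≠ 0 → -dmax ≤ d → d ≤ dmax → c ^ d ≠ 1 := by
  have := Fintype.ofFinite F
  obtain ⟨g, hg⟩ := IsCyclic.exists_generator (α := Fˣ)
  have hord : orderOf g = Nat.card F - 1 := by
    rw [orderOf_eq_card_of_forall_mem_zpowers hg, Nat.card_units]
  refine ⟨g, g.ne_zero, fun d hd h1 h2 he => hd ?_⟩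
  have h3 : g ^ d = 1 := by
    apply Units.ext
    rw [Units.val_zpow_eq_zpow_val]
    simpa using he
  have h4 := orderOf_dvd_iff_zpow_eq_one.2 h3
  rw [hord] at h4
  have hq : 1 ≤ Nat.card F := Nat.card_pos
  refine Int.eq_zero_of_abs_lt_dvd h4 ?_
  rw [abs_lt]
  push_cast [hq]
  constructor <;> omega

/-- Candidates for the closure check: a simple root and the difference. -/
noncomputable def fastC (T : Tbl) (r : ℕ) : List (ℕ × ℕ) :=
  (List.range T.l).map fun i => ((T.chainR (T.neg (T.simple i)) r 1).getD 0, T.simple i)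

/-- Candidates for the closure check: all pairs of positive roots. -/
def bruteC (T : Tbl) (_ : ℕ) : List (ℕ × ℕ) :=
  (List.range' (T.n / 2) (T.n / 2)).flatMap fun a => (List.range' (T.n / 2) (T.n / 2)).map fun b => (a, b)

end Cfsg.Agent.Lib.BNSt
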