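/-
The numerical checks for subgroups of `U` weakly closed in `U`.
-/
import Cfsg.Agent.Lib.BNSt.WkCl
import Cfsg.Agent.Lib.Chev.T3G2
import Cfsg.Agent.Lib.Chev.T3B2
import Cfsg.Agent.Lib.Chev.T3D4
import Cfsg.Agent.Lib.Chev.T3F4

set_option autoImplicit false
set_option maxRecDepth 100000
set_option maxHeartbeats 0

namespace Cfsg.Agent.Lib.BNSt

open Cfsg.Agent.Lib.Chev

theorem wkClG2 : chkCl digG2.tbl (bruteC digG2.tbl) = true := by decide +kernel
theorem wkSepG2 : chkSep digG2.tbl 3 (fun _ _ => false) = true := by decide +kernel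
theorem wkSepG24 : chkSep digG2.tbl 2 excG2 = true := by decide +kernel
theorem wkG24 : ChkG24 digG2.tbl := by decide +kernel
theorem wkClB2 : chkCl digB2.tbl (bruteC digB2.tbl) = true := by decide +kernel
theorem wkSepB2 : chkSep digB2.tbl 2 (fun _ _ => false) = true := by decide +kernel
theorem wkClD4 : chkCl digD4.tbl (fastC digD4.tbl) = true := by decide +kernel
theorem wkSepD4 : chkSep digD4.tbl 2 (fun _ _ => false) = true := by decide +kernel
theorem wkClF4 : chkCl digF4.tbl (bruteC digF4.tbl) = true := by decide +kernel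
theorem wkSepF4 : chkSep digF4.tbl 2 (fun _ _ => false) = true := by decide +kernel

end Cfsg.Agent.Lib.BNSt
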