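/-
The numerical checks for subgroups of `U` weakly closed in `U`: types `E₆`, `E₇`, `E₈`.
-/
import Cfsg.Agent.Lib.BNSt.WkCl
import Cfsg.Agent.Lib.Chev.T3E6
import Cfsg.Agent.Lib.Chev.T3E7
import Cfsg.Agent.Lib.Chev.T3E8

set_option autoImplicit false
set_option maxRecDepth 100000
set_option maxHeartbeats 0

namespace Cfsg.Agent.Lib.BNSt

open Cfsg.Agent.Lib.Chev

theorem wkClE6 : chkCl digE6.tbl (fastC digE6.tbl) = true := by decide +kernel
theorem wkSepE6 : chkSep digE6.tbl 1 (fun _ _ => false) = true := by decide +kernel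
theorem wkClE7 : chkCl digE7.tbl (fastC digE7.tbl) = true := by decide +kernel
theorem wkSepE7 : chkSep digE7.tbl 1 (fun _ _ => false) = true := by decide +kernel
theorem wkClE8 : chkCl digE8.tbl (fastC digE8.tbl) = true := by decide +kernel
theorem wkSepE8 : chkSep digE8.tbl 1 (fun _ _ => false) = true := by decide +kernel

end Cfsg.Agent.Lib.BNSt
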